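import Cfsg.Agent.Lib.TwoFusion.DihSylow
import Cfsg.Agent.Lib.TwoGroups.QDKlein

/-!
# Klein four-subgroups of dihedral groups: normalizers
-/

set_option autoImplicit false

namespace Cfsg.Agent.Lib.TwoFusion.DihKlein

open DihedralGroup Cfsg.Agent.Lib.TwoFusion.Dih Cfsg.Agent.Lib.TwoFusion.DihSylow

variable {m : ℕ}

/-- Every Klein four-subgroup of a dihedral group is some `kl j`. -/
theorem eq_kl_of_klein [NeZero m] (hm : Even m) (h2 : 2 ≤ m) (W : Subgroup (DihedralGroup m))
    (hW : IsKleinFour W) : ∃ j, W = kl hm j := by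
  obtain ⟨i, hi0, hi2, j, hj, hi⟩ := exists_r_of_klein W hW
  have hih : i = half m := by
    rcases two_mul_eq_zero hi2 (two_mul_half hm) (half_ne_zero hm h2) with h | h
    · exact absurd h hi0
    · exact h
  rw [hih] at hi
  refine ⟨j, ?_⟩
  symm
  apply Subgroup.eq_of_le_of_card_ge
  · rintro x (rfl | rfl | rfl | rfl)
    · rw [r_zero]
      exact W.one_mem
    · exact hi
    · exact hj
    · have := W.mul_mem hj hi
      rwa [sr_mul_r] at this
  · rw [hW.card_four, (isKleinFour_kl hm h2 j).card_four]

/-- `2 w = 0` case split. -/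
private lemma two_case [NeZero m] (hm : Even m) (h2 : 2 ≤ m) {w : ZMod m} (hw : 2 * w = 0) :
    w = 0 ∨ w = half m := two_mul_eq_zero hw (two_mul_half hm) (half_ne_zero hm h2)

/-- The normalizer of `kl j`. -/
def nkl (j : ZMod m) : Subgroup (DihedralGroup m) where
  carrier := {x | ∃ a : ZMod m, 4 * a = 0 ∧ (x = r a ∨ x = sr (j + a))}
  one_mem' := ⟨0, by simp, Or.inl rfl⟩
  mul_mem' := by
    rintro _ _ ⟨a, ha, (rfl | rfl)⟩ ⟨b, hb, (rfl | rfl)⟩
    · exact ⟨a + b, by linear_combination ha + hb, Or.inl (by rw [r_mul_r])⟩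
    · exact ⟨b - a, by linear_combination hb - ha, Or.inr (by rw [r_mul_sr]; congr 1; ring)⟩
    · exact ⟨a + b, by linear_combination ha + hb, Or.inr (by rw [sr_mul_r]; congr 1; ring)⟩
    · exact ⟨b - a, by linear_combination hb - ha, Or.inl (by rw [sr_mul_sr]; congr 1; ring)⟩
  inv_mem' := by
    rintro _ ⟨a, ha, (rfl | rfl)⟩
    · exact ⟨-a, by linear_combination -ha, Or.inl (inv_r a)⟩
    · exact ⟨a, ha, Or.inr (inv_sr _)⟩

lemma conj_r_sr (a b : ZMod m) : (r a : DihedralGroup m) * sr b * (r a)⁻¹ = sr (b - 2 * a) := by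
  rw [inv_r, r_mul_sr, sr_mul_r]
  congr 1
  ring

lemma conj_sr_sr (a b : ZMod m) : (sr a : DihedralGroup m) * sr b * (sr a)⁻¹ = sr (2 * a - b) := by
  rw [inv_sr, sr_mul_sr, r_mul_sr]
  congr 1
  ring

lemma conj_r_r (a b : ZMod m) : (r a : DihedralGroup m) * r b * (r a)⁻¹ = r b := by
  rw [inv_r, r_mul_r, r_mul_r]
  congr 1
  ring

lemma conj_sr_r (a b : ZMod m) : (sr a : DihedralGroup m) * r b * (sr a)⁻¹ = r (-b) := by
  rw [inv_sr, sr_mul_r, sr_mul_sr]
  congr 1
  ring

/-- The elements of `nkl j` normalize `kl j`. -/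
theorem nkl_le_normalizer [NeZero m] (hm : Even m) (h2 : 2 ≤ m) (j : ZMod m) :
    nkl j ≤ Subgroup.normalizer ((kl hm j : Subgroup (DihedralGroup m)) : Set (DihedralGroup m)) := by
  have hh := half_add_self hm
  rintro x ⟨a, ha, hx⟩
  apply Cfsg.Agent.Lib.TwoGroups.QD.mem_normalizer_of_conj_mem
  have hw : 2 * (2 * a) = 0 := by linear_combination ha
  have hw' := two_case hm h2 hw
  have hneg := neg_half hm
  rcases hx with rfl | rfl
  · rintro u (rfl | rfl | rfl | rfl)
    · rw [conj_r_r]
      exact Or.inl rfl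
    · rw [conj_r_r]
      exact Or.inr (Or.inl rfl)
    · rw [conj_r_sr]
      rcases hw' with hw' | hw'
      · rw [hw', sub_zero]
        exact Or.inr (Or.inr (Or.inl rfl))
      · rw [hw']
        exact Or.inr (Or.inr (Or.inr (congrArg _ (by linear_combination -hh))))
    · rw [conj_r_sr]
      rcases hw' with hw' | hw'
      · rw [hw', sub_zero]
        exact Or.inr (Or.inr (Or.inr rfl))
      · rw [hw']
        exact Or.inr (Or.inr (Or.inl (congrArg _ (by ring))))
  · rintro u (rfl | rfl | rfl | rfl)
    · rw [conj_sr_r, neg_zero]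
      exact Or.inl rfl
    · rw [conj_sr_r, hneg]
      exact Or.inr (Or.inl rfl)
    · rw [conj_sr_sr]
      rcases hw' with hw' | hw'
      · exact Or.inr (Or.inr (Or.inl (congrArg _ (by linear_combination 1 * hw'))))
      · exact Or.inr (Or.inr (Or.inr (congrArg _ (by linear_combination 1 * hw'))))
    · rw [conj_sr_sr]
      rcases hw' with hw' | hw'
      · exact Or.inr (Or.inr (Or.inr (congrArg _ (by linear_combination 1 * hw' - hh))))
      · exact Or.inr (Or.inr (Or.inl (congrArg _ (by linear_combination 1 * hw'))))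

/-- The normalizer of `kl j` lies in `nkl j`. -/
theorem normalizer_le_nkl [NeZero m] (hm : Even m) (h2 : 2 ≤ m) (j : ZMod m) :
    Subgroup.normalizer ((kl hm j : Subgroup (DihedralGroup m)) : Set (DihedralGroup m)) ≤ nkl j := by
  have hh := half_add_self hm
  have h4 : 2 * (2 * half m) = 0 := by rw [two_mul_half hm, mul_zero]
  intro x hx
  have hmem : x * sr j * x⁻¹ ∈ kl hm j :=
    (Subgroup.mem_normalizer_iff.1 hx _).1 (Or.inr (Or.inr (Or.inl rfl)))
  cases x with
  | r a =>
    rw [conj_r_sr] at hmem
    refine ⟨a, ?_, Or.inl rfl⟩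
    rcases hmem with h | h | h | h
    · cases h
    · cases h
    · have h1 : j - 2 * a = j := sr.inj h
      linear_combination (-2 : ZMod m) * h1
    · have h1 : j - 2 * a = j + half m := sr.inj h
      linear_combination (-2 : ZMod m) * h1 - hh
  | sr b =>
    rw [conj_sr_sr] at hmem
    refine ⟨b - j, ?_, Or.inr (congrArg _ (by ring))⟩
    rcases hmem with h | h | h | h
    · cases h
    · cases h
    · have h1 : 2 * b - j = j := sr.inj h
      linear_combination (2 : ZMod m) * h1
    · have h1 : 2 * b - j = j + half m := sr.inj h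
      linear_combination (2 : ZMod m) * h1 + hh

/-- `kl j` lies in `nkl j`. -/
lemma kl_le_nkl (hm : Even m) (j : ZMod m) : kl hm j ≤ nkl j := by
  have h4 : 4 * half m = 0 := by linear_combination (2 : ZMod m) * two_mul_half hm
  rintro x (rfl | rfl | rfl | rfl)
  · exact Subgroup.one_mem _
  · exact ⟨_, h4, Or.inl rfl⟩
  · exact ⟨0, by simp, Or.inr (by simp)⟩
  · exact ⟨_, h4, Or.inr rfl⟩

/-- A shift of reflections. -/
private def shift (d : ZMod m) : DihedralGroup m → DihedralGroup m
  | r a => r a
  | sr b => sr (b + d)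

private lemma shift_injective (d : ZMod m) : Function.Injective (shift d) := by
  rintro (a | a) (b | b) h
  · exact h
  · cases h
  · cases h
  · have h1 : a + d = b + d := sr.inj h
    rw [add_right_cancel h1]

private lemma coe_nkl_shift (j j' : ZMod m) :
    ((nkl j' : Subgroup (DihedralGroup m)) : Set (DihedralGroup m)) =
      shift (j' - j) '' ((nkl j : Subgroup (DihedralGroup m)) : Set (DihedralGroup m)) := by
  ext x
  constructor
  · rintro ⟨a, ha, (rfl | rfl)⟩
    · exact ⟨r a, ⟨a, ha, Or.inl rfl⟩, rfl⟩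
    · exact ⟨sr (j + a), ⟨a, ha, Or.inr rfl⟩, congrArg sr (by ring)⟩
  · rintro ⟨y, ⟨a, ha, (rfl | rfl)⟩, rfl⟩
    · exact ⟨a, ha, Or.inl rfl⟩
    · exact ⟨a, ha, Or.inr (congrArg sr (by ring))⟩

/-- All the `nkl j` have the same order. -/
theorem card_nkl (j j' : ZMod m) : Nat.card (nkl j') = Nat.card (nkl j) := by
  have h1 : Nat.card (nkl j') = Nat.card ((nkl j' : Subgroup (DihedralGroup m)) : Set (DihedralGroup m)) := rfl
  have h2 : Nat.card (nkl j) = Nat.card ((nkl j : Subgroup (DihedralGroup m)) : Set (DihedralGroup m)) := rfl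
  rw [h1, h2, Nat.card_coe_set_eq, Nat.card_coe_set_eq, coe_nkl_shift j j',
    Set.ncard_image_of_injective _ (shift_injective _)]

/-- Conjugating `kl j` by a rotation. -/
theorem map_conj_kl [NeZero m] (hm : Even m) (h2 : 2 ≤ m) (j a : ZMod m) :
    (kl hm j).map (MulAut.conj (r a : DihedralGroup m)).toMonoidHom = kl hm (j - 2 * a) := by
  apply Subgroup.eq_of_le_of_card_ge
  · rintro _ ⟨u, hu, rfl⟩
    change (r a : DihedralGroup m) * u * (r a)⁻¹ ∈ _
    rcases hu with rfl | rfl | rfl | rfl
    · rw [conj_r_r]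
      exact Or.inl rfl
    · rw [conj_r_r]
      exact Or.inr (Or.inl rfl)
    · rw [conj_r_sr]
      exact Or.inr (Or.inr (Or.inl rfl))
    · rw [conj_r_sr]
      exact Or.inr (Or.inr (Or.inr (congrArg sr (by ring))))
  · rw [Subgroup.card_map_of_injective (MulAut.conj (r a : DihedralGroup m)).injective,
      (isKleinFour_kl hm h2 j).card_four, (isKleinFour_kl hm h2 (j - 2 * a)).card_four]

/-- In a dihedral group of order divisible by 8, `sr 0` and the reflections of `kl 1` are not
conjugate. -/
theorem not_conj_kl_one (h4 : 4 ∣ m) (hm : Even m) (y : DihedralGroup m)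
    (hy : y * sr 0 * y⁻¹ ∈ kl hm 1) : False := by
  have h2m : 2 ∣ m := dvd_trans (by norm_num) h4
  let φ : ZMod m →+* ZMod 2 := ZMod.castHom h2m (ZMod 2)
  have hφ2 : φ 2 = 0 := by
    rw [map_ofNat]
    rfl
  have hφ1 : φ 1 = 1 := map_one φ
  have hh : φ (half m) = 0 := by
    obtain ⟨k, hk⟩ := h4
    have h3 : half m = 2 * (((k : ℕ) : ZMod m)) := by
      unfold half
      rw [hk]
      have : 4 * k / 2 = 2 * k := by omega
      rw [this]
      push_cast
      ring
    rw [h3, map_mul, hφ2, zero_mul]
  have key : ∀ e : ZMod m, (1 : ZMod m) = 2 * e → False := by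
    intro e he
    have h1 := congrArg φ he
    rw [hφ1, map_mul, hφ2, zero_mul] at h1
    exact one_ne_zero h1
  have key2 : ∀ e f : ZMod m, (1 : ZMod m) + half m = 2 * e → False := by
    intro e _ he
    have h1 := congrArg φ he
    rw [map_add, hφ1, hh, map_mul, hφ2, zero_mul, add_zero] at h1
    exact one_ne_zero h1
  cases y with
  | r a =>
    rw [conj_r_sr] at hy
    rcases hy with h | h | h | h
    · cases h
    · cases h
    · have h1 : 0 - 2 * a = 1 := sr.inj h
      exact key (-a) (by linear_combination -h1)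
    · have h1 : 0 - 2 * a = 1 + half m := sr.inj h
      exact key2 (-a) 0 (by linear_combination -h1)
  | sr b =>
    rw [conj_sr_sr] at hy
    rcases hy with h | h | h | h
    · cases h
    · cases h
    · have h1 : 2 * b - 0 = 1 := sr.inj h
      exact key b (by linear_combination -h1)
    · have h1 : 2 * b - 0 = 1 + half m := sr.inj h
      exact key2 b 0 (by linear_combination -h1)

/-- Quarter element. -/
def quarter (m : ℕ) : ZMod m := ((m / 4 : ℕ) : ZMod m)

lemma two_mul_quarter (h4 : 4 ∣ m) : 2 * quarter m = half m := by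
  obtain ⟨k, rfl⟩ := h4
  unfold quarter half
  have e1 : 4 * k / 4 = k := by omega
  have e2 : 4 * k / 2 = 2 * k := by omega
  rw [e1, e2]
  push_cast
  ring

/-- Elements of order four in a dihedral group. -/
theorem eq_of_orderOf_four [NeZero m] (h4 : 4 ∣ m) (hm : Even m) (h2 : 2 ≤ m) {x : DihedralGroup m}
    (hx : orderOf x = 4) : x = r (quarter m) ∨ x = r (- quarter m) := by
  cases x with
  | sr b =>
    rw [orderOf_sr] at hx
    omega
  | r a =>
    have h1 : (r a : DihedralGroup m) ^ 4 = 1 := by rw [← hx]; exact pow_orderOf_eq_one _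
    have h3 : (r a : DihedralGroup m) ^ 2 ≠ 1 := by
      intro h
      have := orderOf_dvd_of_pow_eq_one h
      rw [hx] at this
      omega
    rw [r_pow] at h1 h3
    have h5 : a * ((4 : ℕ) : ZMod m) = 0 := r.inj (h1.trans r_zero.symm)
    have h6 : a * ((2 : ℕ) : ZMod m) ≠ 0 := by
      intro h
      apply h3
      rw [h, r_zero]
    push_cast at h5 h6
    have h7 : 2 * (2 * a) = 0 := by linear_combination h5
    have h8 : 2 * a = half m := by
      rcases two_case hm h2 h7 with h | h
      · exact absurd (by linear_combination h) h6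
      · exact h
    have hq := two_mul_quarter h4
    have h9 : 2 * (a - quarter m) = 0 := by linear_combination h8 - hq
    rcases two_case hm h2 h9 with h | h
    · left
      exact congrArg r (sub_eq_zero.1 h)
    · right
      refine congrArg r ?_
      have h10 : a - quarter m = 2 * quarter m := by rw [h, hq]
      have h11 : 4 * quarter m = 0 := by
        have := two_mul_half hm
        rw [← hq] at this
        linear_combination this
      linear_combination h10 + h11

/-- The order of `r (m/4)`. -/
theorem orderOf_r_quarter [NeZero m] (h4 : 4 ∣ m) (hm : Even m) (h2 : 2 ≤ m) :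
    orderOf (r (quarter m) : DihedralGroup m) = 4 := by
  have hq := two_mul_quarter h4
  have h0 := half_ne_zero hm h2
  have : orderOf (r (quarter m) : DihedralGroup m) = 2 ^ 2 := by
    apply orderOf_eq_prime_pow
    · rw [pow_one, r_pow]
      intro h
      apply h0
      have h1 : quarter m * ((2 : ℕ) : ZMod m) = 0 := r.inj (h.trans r_zero.symm)
      push_cast at h1
      rw [← hq]
      linear_combination h1
    · rw [r_pow]
      have h1 : quarter m * ((2 ^ 2 : ℕ) : ZMod m) = 0 := by
        have := two_mul_half hm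
        rw [← hq] at this
        push_cast
        linear_combination this
      rw [h1, r_zero]
  simpa using this

/-- Elements commuting with `r (m/4)` are rotations. -/
theorem eq_r_of_commute [NeZero m] (h4 : 4 ∣ m) (hm : Even m) (h2 : 2 ≤ m) {x : DihedralGroup m}
    (hx : x * r (quarter m) = r (quarter m) * x) : ∃ a, x = r a := by
  cases x with
  | r a => exact ⟨a, rfl⟩
  | sr b =>
    exfalso
    rw [sr_mul_r, r_mul_sr] at hx
    have h1 : b + quarter m = b - quarter m := sr.inj hx
    apply half_ne_zero hm h2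
    rw [← two_mul_quarter h4]
    linear_combination h1

end Cfsg.Agent.Lib.TwoFusion.DihKlein
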