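import Cfsg.Agent.Lib.ZStar.Quat
import Cfsg.Agent.Lib.TwoFusion.WRFusion2
import Cfsg.Agent.Lib.TwoFusion.ZStarHyp

/-!
# Sylow `2`-subgroups `Q × R` with `Q` quaternion and the involutions of `R` central in `R`
-/

set_option autoImplicit false
set_option linter.unusedSectionVars false

namespace Cfsg.Agent.Lib.TwoFusion.QuatProd

open Subgroup Cfsg QuaternionGroup

universe u

variable {G : Type u} [Group G] [Finite G]

section Direct

variable {S Q R : Subgroup G} (hQR : IsInternalDirectProduct Q R S)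
include hQR

lemma exists_dec {s : G} (hs : s ∈ S) : ∃ q ∈ Q, ∃ r ∈ R, s = q * r := by
  obtain ⟨hQS, hRS, hcomm, hdisj, hsup⟩ := hQR
  rw [← hsup] at hs
  exact GoodAut.mem_sup_of_commute hcomm hs

lemma eq_one_of_mem_mem {x : G} (h1 : x ∈ Q) (h2 : x ∈ R) : x = 1 := by
  obtain ⟨hQS, hRS, hcomm, hdisj, hsup⟩ := hQR
  have : x ∈ Q ⊓ R := ⟨h1, h2⟩
  rw [hdisj] at this
  simpa using this

lemma dec_unique {q q' r r' : G} (hq : q ∈ Q) (hq' : q' ∈ Q) (hr : r ∈ R) (hr' : r' ∈ R)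
    (h : q * r = q' * r') : q = q' ∧ r = r' := by
  have h1 : q'⁻¹ * q = r' * r⁻¹ := by
    calc q'⁻¹ * q = q'⁻¹ * (q * r) * r⁻¹ := by group
      _ = q'⁻¹ * (q' * r') * r⁻¹ := by rw [h]
      _ = r' * r⁻¹ := by group
  have h2 : q'⁻¹ * q = 1 := eq_one_of_mem_mem hQR (Q.mul_mem (Q.inv_mem hq') hq)
    (h1 ▸ R.mul_mem hr' (R.inv_mem hr))
  have h3 : q = q' := by
    have : q = q' * (q'⁻¹ * q) := by group
    rw [this, h2, mul_one]
  subst h3
  exact ⟨rfl, mul_left_cancel h⟩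

lemma normal_left {s q : G} (hs : s ∈ S) (hq : q ∈ Q) : s * q * s⁻¹ ∈ Q := by
  obtain ⟨q', hq', r', hr', rfl⟩ := exists_dec hQR hs
  obtain ⟨hQS, hRS, hcomm, hdisj, hsup⟩ := hQR
  have h1 : q' * r' * q * (q' * r')⁻¹ = q' * q * q'⁻¹ := by
    have h2 := hcomm q hq r' hr'
    calc q' * r' * q * (q' * r')⁻¹ = q' * (r' * q) * r'⁻¹ * q'⁻¹ := by group
      _ = q' * (q * r') * r'⁻¹ * q'⁻¹ := by rw [h2]
      _ = q' * q * q'⁻¹ := by group
  rw [h1]
  exact Q.mul_mem (Q.mul_mem hq' hq) (Q.inv_mem hq')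

lemma sq_dec {q r : G} (hq : q ∈ Q) (hr : r ∈ R) (h : (q * r) ^ 2 = 1) : q ^ 2 = 1 ∧ r ^ 2 = 1 := by
  obtain ⟨hQS, hRS, hcomm, hdisj, hsup⟩ := id hQR
  have h1 : q ^ 2 * r ^ 2 = 1 := by
    rw [← h, pow_two, pow_two, pow_two]
    have h2 := hcomm q hq r hr
    calc q * q * (r * r) = q * (q * r) * r := by group
      _ = q * (r * q) * r := by rw [h2]
      _ = q * r * (q * r) := by group
  have h2 := dec_unique hQR (Q.pow_mem hq 2) Q.one_mem (R.pow_mem hr 2) R.one_mem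
    (by rw [h1, one_mul])
  exact h2

end Direct

section Main

variable (S : Sylow 2 G) {Q R : Subgroup G} (hQR : IsInternalDirectProduct Q R (S : Subgroup G))
  {z : G} (hz : orderOf z = 2) (hzQ : z ∈ Q) (huniq : ∀ u ∈ Q, orderOf u = 2 → u = z)
  (hR : ∀ r ∈ R, orderOf r = 2 → ∀ s ∈ R, r * s = s * r)

include hQR hz hzQ huniq hR

lemma orderOf_two_of_sq {x : G} (h : x ^ 2 = 1) (h1 : x ≠ 1) : orderOf x = 2 :=
  orderOf_eq_prime h h1

/-- Every involution of `S` is central in `S`. -/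
lemma central_of_sq {u : G} (hu : u ∈ (S : Subgroup G)) (h2 : u ^ 2 = 1) {s : G}
    (hs : s ∈ (S : Subgroup G)) : s * u = u * s := by
  obtain ⟨q, hq, r, hr, rfl⟩ := exists_dec hQR hu
  obtain ⟨q', hq', r', hr', rfl⟩ := exists_dec hQR hs
  obtain ⟨hq2, hr2⟩ := sq_dec hQR hq hr h2
  obtain ⟨hQS, hRS, hcomm, hdisj, hsup⟩ := id hQR
  have hqc : q' * q = q * q' := by
    by_cases hq1 : q = 1
    · simp [hq1]
    · have h1 : orderOf q = 2 := orderOf_eq_prime hq2 hq1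
      have h3 := huniq q hq h1
      subst h3
      have h4 : orderOf (q' * q * q'⁻¹) = 2 := by
        rw [← h1]
        simpa using (MulAut.conj q').orderOf_eq q
      have h5 := huniq _ (Q.mul_mem (Q.mul_mem hq' hq) (Q.inv_mem hq')) h4
      calc q' * q = (q' * q * q'⁻¹) * q' := by group
        _ = q * q' := by rw [h5]
  have hrc : r' * r = r * r' := by
    by_cases hr1 : r = 1
    · simp [hr1]
    · have h1 : orderOf r = 2 := orderOf_eq_prime hr2 hr1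
      exact (hR r hr h1 r' hr').symm
  have c1 := hcomm q hq r' hr'
  have c2 := hcomm q' hq' r hr
  calc q' * r' * (q * r) = q' * (r' * q) * r := by group
    _ = q' * (q * r') * r := by rw [c1]
    _ = (q' * q) * (r' * r) := by group
    _ = (q * q') * (r * r') := by rw [hqc, hrc]
    _ = q * (q' * r) * r' := by group
    _ = q * (r * q') * r' := by rw [c2]
    _ = q * r * (q' * r') := by group

variable {α₀ β₀ : G} {N : ℕ} (hα : α₀ ∈ Q) (hβ : β₀ ∈ Q) (hw : (α₀ * β₀ * α₀⁻¹ * β₀⁻¹) ^ N = z)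

include hα hβ hw

/-- Conjugates of `z` under `N(S)` different from `z` lie in `R`. -/
lemma conj_mem_or_eq {x : G} (hx : x ∈ normalizer ((S : Subgroup G) : Set G)) :
    x * z * x⁻¹ ∈ R ∨ x * z * x⁻¹ = z := by
  obtain ⟨hQS, hRS, hcomm, hdisj, hsup⟩ := id hQR
  have hmem : ∀ {s}, s ∈ (S : Subgroup G) → x * s * x⁻¹ ∈ (S : Subgroup G) :=
    fun {s} hs => (mem_normalizer_iff.1 hx s).1 hs
  have hmem' : ∀ {s}, s ∈ (S : Subgroup G) → x⁻¹ * s * x ∈ (S : Subgroup G) := by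
    intro s hs
    have := (mem_normalizer_iff.1 (inv_mem hx) s).1 hs
    simpa using this
  have huS := hmem (hQS hzQ)
  have hu2 : (x * z * x⁻¹) ^ 2 = 1 := by
    rw [conj_pow, ← hz, pow_orderOf_eq_one]
    simp
  obtain ⟨q, hq, r, hr, hdec⟩ := exists_dec hQR huS
  rw [hdec] at hu2
  obtain ⟨hq2, hr2⟩ := sq_dec hQR hq hr hu2
  by_cases hq1 : q = 1
  · left
    rw [hdec, hq1, one_mul]
    exact hr
  right
  have hqz : q = z := huniq q hq (orderOf_eq_prime hq2 hq1)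
  rw [hqz] at hdec
  -- the quaternion subgroup `x Q x⁻¹`
  set α := x * α₀ * x⁻¹ with hαdef
  set β := x * β₀ * x⁻¹ with hβdef
  obtain ⟨a₁, ha₁, b₁, hb₁, hαe⟩ : ∃ q ∈ Q, ∃ r ∈ R, α = q * r := exists_dec hQR (hmem (hQS hα))
  obtain ⟨a₂, ha₂, b₂, hb₂, hβe⟩ : ∃ q ∈ Q, ∃ r ∈ R, β = q * r := exists_dec hQR (hmem (hQS hβ))
  set c := a₁ * a₂ * a₁⁻¹ * a₂⁻¹ with hc
  set d := b₁ * b₂ * b₁⁻¹ * b₂⁻¹ with hd
  have hcQ : c ∈ Q := Q.mul_mem (Q.mul_mem (Q.mul_mem ha₁ ha₂) (Q.inv_mem ha₁)) (Q.inv_mem ha₂)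
  have hdR : d ∈ R := R.mul_mem (R.mul_mem (R.mul_mem hb₁ hb₂) (R.inv_mem hb₁)) (R.inv_mem hb₂)
  have hcomm' : ∀ {u v}, u ∈ Q → v ∈ R → u * v = v * u := fun {u v} hu hv => hcomm u hu v hv
  have mul_dec : ∀ {a b a' b' : G}, a' ∈ Q → b ∈ R → (a * b) * (a' * b') = (a * a') * (b * b') := by
    intro a b a' b' ha' hb
    calc (a * b) * (a' * b') = a * (b * a') * b' := by group
      _ = a * (a' * b) * b' := by rw [hcomm' ha' hb]
      _ = (a * a') * (b * b') := by group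
  have inv_dec : ∀ {a b : G}, a ∈ Q → b ∈ R → (a * b)⁻¹ = a⁻¹ * b⁻¹ := by
    intro a b ha hb
    rw [mul_inv_rev]
    exact (hcomm' (Q.inv_mem ha) (R.inv_mem hb)).symm
  have hcomm1 : α * β * α⁻¹ * β⁻¹ = c * d := by
    rw [hαe, hβe, inv_dec ha₁ hb₁, inv_dec ha₂ hb₂, mul_dec ha₂ hb₁, mul_dec (Q.inv_mem ha₁) (R.mul_mem hb₁ hb₂),
      mul_dec (Q.inv_mem ha₂) (R.mul_mem (R.mul_mem hb₁ hb₂) (R.inv_mem hb₁))]
  have hconj : α * β * α⁻¹ * β⁻¹ = x * (α₀ * β₀ * α₀⁻¹ * β₀⁻¹) * x⁻¹ := by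
    rw [hαdef, hβdef]
    group
  have hpow : (c * d) ^ N = x * z * x⁻¹ := by
    rw [← hcomm1, hconj, conj_pow, hw]
  have hpow2 : (c * d) ^ N = c ^ N * d ^ N := by
    have : Commute c d := hcomm' hcQ hdR
    exact this.mul_pow N
  have hcN : c ^ N = z := by
    rw [hpow2, hdec] at hpow
    exact (dec_unique hQR (Q.pow_mem hcQ N) hzQ (R.pow_mem hdR N) hr hpow).1
  -- `c` lies in `x Q x⁻¹`
  have hcQ1 : x⁻¹ * c * x ∈ Q := by
    have e : c = (a₁ * β * a₁⁻¹) * β⁻¹ := by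
      rw [hβe, inv_dec ha₂ hb₂, hc]
      have h1 := hcomm' (Q.inv_mem ha₁) hb₂
      calc a₁ * a₂ * a₁⁻¹ * a₂⁻¹ = a₁ * a₂ * (b₂ * b₂⁻¹) * a₁⁻¹ * a₂⁻¹ := by group
        _ = a₁ * a₂ * b₂ * (b₂⁻¹ * a₁⁻¹) * a₂⁻¹ := by group
        _ = a₁ * a₂ * b₂ * (a₁⁻¹ * b₂⁻¹) * a₂⁻¹ := by
          rw [hcomm' (Q.inv_mem ha₁) (R.inv_mem hb₂)]
        _ = a₁ * (a₂ * b₂) * a₁⁻¹ * (a₂⁻¹ * b₂⁻¹) := by
          have h2 := hcomm' (Q.inv_mem ha₂) (R.inv_mem hb₂)
          rw [h2]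
          group
    have e2 : x⁻¹ * c * x = (x⁻¹ * a₁ * x) * β₀ * (x⁻¹ * a₁ * x)⁻¹ * β₀⁻¹ := by
      rw [e, hβdef]
      group
    rw [e2]
    exact Q.mul_mem (normal_left hQR (hmem' (hQS ha₁)) hβ) (Q.inv_mem hβ)
  -- hence `z` lies in `x Q x⁻¹`, and it is its unique involution
  have hzQ1 : x⁻¹ * z * x ∈ Q := by
    rw [← hcN]
    have e : x⁻¹ * c ^ N * x = (x⁻¹ * c * x) ^ N := by
      have := conj_pow (a := x⁻¹) (b := c) (i := N)
      simpa using this.symm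
    rw [e]
    exact Q.pow_mem hcQ1 N
  have h3 : orderOf (x⁻¹ * z * x) = 2 := by
    rw [← hz]
    simpa using (MulAut.conj x⁻¹).orderOf_eq z
  have h4 := huniq _ hzQ1 h3
  calc x * z * x⁻¹ = x * z * x⁻¹ := rfl
    _ = z := by
      have h5 : z = x * (x⁻¹ * z * x) * x⁻¹ := by group
      rw [h4] at h5
      exact h5.symm

/-- A non-trivial involution of `Z(S)` fixed by `N(S)`. -/
theorem exists_fixed : ∃ w : G, w ∈ (S : Subgroup G) ∧ orderOf w = 2 ∧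
    ∀ x ∈ normalizer ((S : Subgroup G) : Set G), x * w * x⁻¹ = w := by
  classical
  obtain ⟨hQS, hRS, hcomm, hdisj, hsup⟩ := id hQR
  letI : Fintype ↥(center (S : Subgroup G)) := Fintype.ofFinite _
  letI : CommGroup ↥(center (S : Subgroup G)) :=
    { (inferInstance : Group ↥(center (S : Subgroup G))) with
      mul_comm := fun a b => Subtype.ext (mem_center_iff.1 b.2 a) }
  let φ : ↥(center (S : Subgroup G)) →* G := (S : Subgroup G).subtype.comp (center (S : Subgroup G)).subtype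
  have hφ : ∀ ζ, φ ζ ∈ (S : Subgroup G) := fun ζ => ((ζ : (S : Subgroup G))).2
  have hφc : ∀ ζ, ∀ s ∈ (S : Subgroup G), s * φ ζ = φ ζ * s := by
    intro ζ s hs
    exact congrArg Subtype.val (mem_center_iff.1 ζ.2 ⟨s, hs⟩)
  have hφinj : Function.Injective φ := fun a b h => Subtype.ext (Subtype.ext h)
  -- conjugation on the centre
  have hNc : ∀ x ∈ normalizer ((S : Subgroup G) : Set G), ∀ ζ : ↥(center (S : Subgroup G)),
      ∃ ζ' : ↥(center (S : Subgroup G)), φ ζ' = x * φ ζ * x⁻¹ := by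
    intro x hx ζ
    have h1 : x * φ ζ * x⁻¹ ∈ (S : Subgroup G) := (mem_normalizer_iff.1 hx _).1 (hφ ζ)
    refine ⟨⟨⟨_, h1⟩, ?_⟩, rfl⟩
    rw [mem_center_iff]
    rintro ⟨s, hs⟩
    apply Subtype.ext
    show s * (x * φ ζ * x⁻¹) = x * φ ζ * x⁻¹ * s
    have h2 : x⁻¹ * s * x ∈ (S : Subgroup G) := by
      have := (mem_normalizer_iff.1 (inv_mem hx) s).1 hs
      simpa using this
    have h3 := hφc ζ _ h2
    calc s * (x * φ ζ * x⁻¹) = x * ((x⁻¹ * s * x) * φ ζ) * x⁻¹ := by group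
      _ = x * (φ ζ * (x⁻¹ * s * x)) * x⁻¹ := by rw [h3]
      _ = x * φ ζ * x⁻¹ * s := by group
  -- the orbit of `z`
  have hzc : ∃ ζ₀ : ↥(center (S : Subgroup G)), φ ζ₀ = z := by
    have h1 : z ∈ (S : Subgroup G) := hQS hzQ
    refine ⟨⟨⟨z, h1⟩, ?_⟩, rfl⟩
    rw [mem_center_iff]
    rintro ⟨s, hs⟩
    apply Subtype.ext
    have h2 : z ^ 2 = 1 := by rw [← hz]; exact pow_orderOf_eq_one z
    exact central_of_sq S hQR hz hzQ huniq hR h1 h2 hs
  obtain ⟨ζ₀, hζ₀⟩ := hzc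
  let O : Finset ↥(center (S : Subgroup G)) :=
    Finset.univ.filter (fun ζ => ∃ x ∈ normalizer ((S : Subgroup G) : Set G), φ ζ = x * z * x⁻¹)
  have hO : ∀ {ζ}, ζ ∈ O ↔ ∃ x ∈ normalizer ((S : Subgroup G) : Set G), φ ζ = x * z * x⁻¹ := by
    intro ζ
    simp [O]
  have hζ₀O : ζ₀ ∈ O := hO.2 ⟨1, one_mem _, by simp [hζ₀]⟩
  let w : ↥(center (S : Subgroup G)) := ∏ ζ ∈ O, ζ
  have hO2 : ∀ ζ ∈ O, ζ ^ 2 = 1 := by
    intro ζ hζ
    obtain ⟨x, -, hx⟩ := hO.1 hζ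
    apply hφinj
    have e : φ (ζ ^ 2) = (x * z * x⁻¹) ^ 2 := by
      rw [← hx]
      exact map_pow φ ζ 2
    have h2 : z ^ 2 = 1 := by rw [← hz]; exact pow_orderOf_eq_one z
    rw [e, conj_pow, h2, map_one]
    simp
  have hw2 : w ^ 2 = 1 := by
    rw [← Finset.prod_pow]
    exact Finset.prod_eq_one hO2
  have hw1 : φ w ≠ 1 := by
    intro h1
    have h2 : w = ζ₀ * ∏ ζ ∈ O.erase ζ₀, ζ := (Finset.mul_prod_erase O (fun ζ => ζ) hζ₀O).symm
    have h3 : φ (∏ ζ ∈ O.erase ζ₀, ζ) ∈ R := by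
      apply Finset.prod_induction (fun ζ => ζ) (fun ζ => φ ζ ∈ R)
      · intro a b ha hb
        rw [map_mul]
        exact R.mul_mem ha hb
      · rw [map_one]
        exact R.one_mem
      · intro ζ hζ
        obtain ⟨hne, hζO⟩ := Finset.mem_erase.1 hζ
        obtain ⟨x, hx, hxe⟩ := hO.1 hζO
        rcases conj_mem_or_eq S hQR hz hzQ huniq hR hα hβ hw hx with h | h
        · rw [hxe]
          exact h
        · exfalso
          apply hne
          apply hφinj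
          rw [hxe, h, hζ₀]
    rw [h2, map_mul, hζ₀] at h1
    have h4 : z = (φ (∏ ζ ∈ O.erase ζ₀, ζ))⁻¹ := eq_inv_of_mul_eq_one_left h1
    have h5 : z ∈ R := by
      rw [h4]
      exact R.inv_mem h3
    have h6 := eq_one_of_mem_mem hQR hzQ h5
    rw [h6, orderOf_one] at hz
    omega
  refine ⟨φ w, hφ w, ?_, ?_⟩
  · apply orderOf_eq_prime
    · rw [← map_pow, hw2, map_one]
    · exact hw1
  · intro x hx
    choose f hf using hNc x hx
    choose f' hf' using hNc x⁻¹ (inv_mem hx)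
    have hfmul : ∀ a b, f (a * b) = f a * f b := by
      intro a b
      apply hφinj
      rw [hf, map_mul, map_mul, hf, hf]
      group
    let F : ↥(center (S : Subgroup G)) →* ↥(center (S : Subgroup G)) :=
      MonoidHom.mk' f hfmul
    have hFw : F w = ∏ ζ ∈ O, F ζ := map_prod F _ _
    have hperm : ∏ ζ ∈ O, F ζ = ∏ ζ ∈ O, ζ := by
      apply Finset.prod_nbij' f f'
      · intro ζ hζ
        obtain ⟨y, hy, hye⟩ := hO.1 hζ
        refine hO.2 ⟨x * y, mul_mem hx hy, ?_⟩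
        rw [hf, hye]
        group
      · intro ζ hζ
        obtain ⟨y, hy, hye⟩ := hO.1 hζ
        refine hO.2 ⟨x⁻¹ * y, mul_mem (inv_mem hx) hy, ?_⟩
        rw [hf', hye]
        group
      · intro ζ _
        apply hφinj
        rw [hf', hf]
        group
      · intro ζ _
        apply hφinj
        rw [hf, hf']
        group
      · intro ζ _
        rfl
    have h1 : F w = w := hFw.trans hperm
    have h2 : φ (F w) = x * φ w * x⁻¹ := hf w
    rw [h1] at h2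
    exact h2.symm

/-- Burnside's lemma: the element found above has no other conjugates in `S`. -/
theorem not_simple_of_zstar (hZ : ZStarAt G) (hne : α₀ * β₀ ≠ β₀ * α₀) : ¬ IsSimpleGroup G := by
  intro hsimple
  obtain ⟨hQS, hRS, hcomm, hdisj, hsup⟩ := id hQR
  obtain ⟨w, hwS, hw2, hwfix⟩ := exists_fixed S hQR hz hzQ huniq hR hα hβ hw
  have hwsq : w ^ 2 = 1 := by rw [← hw2]; exact pow_orderOf_eq_one w
  have hwc : ∀ {u}, u ∈ (S : Subgroup G) → u ^ 2 = 1 → u ∈ WRLocal.gZ S := by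
    intro u hu hu2
    refine ⟨⟨u, hu⟩, ?_, rfl⟩
    rw [SetLike.mem_coe, mem_center_iff]
    rintro ⟨s, hs⟩
    apply Subtype.ext
    exact central_of_sq S hQR hz hzQ huniq hR hu hu2 hs
  obtain ⟨N, hN, hodd, hNg⟩ := hZ S w hw2 hwS (by
    intro g hg
    have hg2 : (g * w * g⁻¹) ^ 2 = 1 := by
      rw [conj_pow, hwsq]
      simp
    obtain ⟨n, hn, hne⟩ := WRLocal.exists_normalizer_conj S (hwc hwS hwsq) (hwc hg hg2)
    rw [← hne, hwfix n hn])
  have hcases := hsimple.eq_bot_or_eq_top_of_normal N hN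
  rcases hcases with rfl | rfl
  · -- `w` is central
    have hcen : ∀ g : G, g * w = w * g := by
      intro g
      have h1 := hNg g
      rw [mem_bot] at h1
      have h2 : w * g * w⁻¹ * g⁻¹ = 1 := h1
      calc g * w = (w * g * w⁻¹ * g⁻¹)⁻¹ * (w * g) := by
            rw [mul_inv_rev, mul_inv_rev, mul_inv_rev]
            group
        _ = w * g := by rw [h2]; simp
    have hwc : w ∈ center G := mem_center_iff.2 hcen
    have hc : center G = ⊤ := by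
      rcases hsimple.eq_bot_or_eq_top_of_normal (center G) inferInstance with h | h
      · rw [h, mem_bot] at hwc
        rw [hwc, orderOf_one] at hw2
        omega
      · exact h
    apply hne
    have h3 : β₀ ∈ center G := by rw [hc]; trivial
    exact mem_center_iff.1 h3 α₀
  · -- `G` has odd order
    have hc : Nat.card (⊤ : Subgroup G) = Nat.card G := Subgroup.card_top
    rw [hc] at hodd
    have h1 := orderOf_dvd_natCard w
    rw [hw2] at h1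
    obtain ⟨k, hk⟩ := hodd
    omega

end Main

/-- The commutator computation in a quaternion group. -/
lemma quat_comm (n : ℕ) (hn : 1 ≤ n) :
    ((a 1 : QuaternionGroup (2 ^ n)) * xa 0 * (a 1)⁻¹ * (xa 0)⁻¹) ^ (2 ^ (n - 1)) =
      a ((2 ^ n : ℕ) : ZMod (2 * 2 ^ n)) := by
  have e1 : ((a 1 : QuaternionGroup (2 ^ n)) * xa 0 * (a 1)⁻¹ * (xa 0)⁻¹) = a 1 * a 1 := by
    have hh : ((2 : ZMod (2 * 2 ^ n)) * ((2 ^ n : ℕ) : ZMod (2 * 2 ^ n))) = 0 := by
      have h0 : ((2 * 2 ^ n : ℕ) : ZMod (2 * 2 ^ n)) = 0 := ZMod.natCast_self _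
      rw [Nat.cast_mul] at h0
      exact_mod_cast h0
    have e2 : (a 1 : QuaternionGroup (2 ^ n))⁻¹ = a (-1) := rfl
    have e3 : (xa 0 : QuaternionGroup (2 ^ n))⁻¹ = xa (((2 ^ n : ℕ) : ZMod (2 * 2 ^ n)) + 0) := rfl
    rw [a_mul_xa, e2, xa_mul_a, e3, xa_mul_xa, a_mul_a]
    congr 1
    have : ((2 ^ n : ℕ) : ZMod (2 * 2 ^ n)) + ((2 ^ n : ℕ) : ZMod (2 * 2 ^ n)) = 0 := by
      rw [← hh]; ring
    linear_combination this
  rw [e1, ← pow_two, ← pow_mul]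
  rw [a_one_pow]
  congr 1
  have : 2 * 2 ^ (n - 1) = 2 ^ n := by
    obtain ⟨k, rfl⟩ : ∃ k, n = k + 1 := ⟨n - 1, by omega⟩
    simp [pow_succ, mul_comm]
  rw [this]

/-- The final statement, from the `Z*`-theorem. -/
theorem of_zstar (hZ : ZStarAt G)
    (S : Sylow 2 G) (Q R : Subgroup G) (hQR : Cfsg.IsInternalDirectProduct Q R (S : Subgroup G))
    (n : ℕ) (hn : 1 ≤ n) (eQ : ↥Q ≃* QuaternionGroup (2 ^ n))
    (hR : ∀ r ∈ R, orderOf r = 2 → ∀ s ∈ R, r * s = s * r) :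
    ¬ IsSimpleGroup G := by
  haveI : NeZero (2 ^ n) := ⟨by positivity⟩
  set z₀ : QuaternionGroup (2 ^ n) := a ((2 ^ n : ℕ) : ZMod (2 * 2 ^ n)) with hz₀
  set z : G := ((eQ.symm z₀ : Q) : G) with hz
  have hz2 : orderOf z = 2 := by
    rw [hz, Subgroup.orderOf_coe, MulEquiv.orderOf_eq]
    exact ZStar.Quat.orderOf_a_self _
  have hzQ : z ∈ Q := (eQ.symm z₀).2
  have huniq : ∀ u ∈ Q, orderOf u = 2 → u = z := by
    intro u hu hu2
    have h1 : orderOf (eQ ⟨u, hu⟩) = 2 := by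
      rw [MulEquiv.orderOf_eq, ← hu2]
      exact Subgroup.orderOf_mk u hu
    have h2 := ZStar.Quat.eq_of_orderOf_eq_two h1
    rw [hz]
    have h3 : (⟨u, hu⟩ : Q) = eQ.symm z₀ := by
      rw [← MulEquiv.eq_symm_apply] at h2
      exact h2
    rw [← h3]
  set α₀ : G := ((eQ.symm (a 1) : Q) : G) with hα₀
  set β₀ : G := ((eQ.symm (xa 0) : Q) : G) with hβ₀
  have hw : (α₀ * β₀ * α₀⁻¹ * β₀⁻¹) ^ (2 ^ (n - 1)) = z := by
    have h1 := quat_comm n hn
    let ψ : QuaternionGroup (2 ^ n) →* G := Q.subtype.comp eQ.symm.toMonoidHom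
    have h2 := congrArg ψ h1
    rwa [map_pow, map_mul, map_mul, map_mul, map_inv, map_inv] at h2
  refine not_simple_of_zstar S hQR hz2 hzQ huniq hR (eQ.symm (a 1)).2 (eQ.symm (xa 0)).2 hw hZ ?_
  intro h
  have h1 : (eQ.symm (a 1) : Q) * eQ.symm (xa 0) = eQ.symm (xa 0) * eQ.symm (a 1) :=
    Subtype.ext h
  have h2 : (a 1 : QuaternionGroup (2 ^ n)) * xa 0 = xa 0 * a 1 := by
    have := congrArg eQ h1
    simpa using this
  rw [a_mul_xa, xa_mul_a, xa.injEq] at h2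
  -- `-1 = 1` fails in `ZMod (2 * 2 ^ n)`
  have h3 : (2 : ZMod (2 * 2 ^ n)) = 0 := by
    have : (0 : ZMod (2 * 2 ^ n)) - 1 = 0 + 1 := h2
    linear_combination -this
  have h4 : ((2 : ℕ) : ZMod (2 * 2 ^ n)) = 0 := by simpa using h3
  rw [ZMod.natCast_eq_zero_iff] at h4
  have h5 : 2 * 2 ^ n ≤ 2 := Nat.le_of_dvd (by norm_num) h4
  have h6 : 2 ^ 1 ≤ 2 ^ n := Nat.pow_le_pow_right (by norm_num) hn
  omega

end Cfsg.Agent.Lib.TwoFusion.QuatProd
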