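import Cfsg.Agent.Lib.ElementFusion.SL23
import Cfsg.Agent.Lib.Zassen.QuatAut
import Cfsg.Agent.Lib.PermMod.MinNormal
import Cfsg.Agent.S0016

/-!
# Groups with a self-centralizing normal `Q₈` and no normal Sylow 2-subgroup
-/

set_option autoImplicit false
set_option linter.style.haveILetI false
set_option linter.unusedSectionVars false

namespace Cfsg.Agent.Lib.TwoFusion.RankOneQ8

open QuaternionGroup Cfsg.Agent.Lib.ElementFusion.SL23 Subgroup

section Q8facts

theorem aut_word (τ : MulAut Q8) (x : Q8) : τ x = quatFun (τ (a 1)) (τ (xa 0)) x := by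
  have h1 : ∀ s : ZMod (2*2), τ (a s) = τ (a 1) ^ s.val := by
    intro s
    rw [← map_pow, a_one_pow]; simp
  cases x with
  | a s => exact h1 s
  | xa s =>
    change τ (xa s) = τ (xa 0) * τ (a 1) ^ s.val
    rw [← h1, ← map_mul]; simp

set_option synthInstance.maxHeartbeats 0 in
set_option synthInstance.maxSize 10000 in
theorem label_aux : ∀ p q : Q8, (∀ x y, quatFun p q (x*y)=quatFun p q x*quatFun p q y) →
    (∀ x, quatFun p q (quatFun p q (quatFun p q x))=x) → (∃ x, quatFun p q x≠x) → ∀ p' q' : Q8,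
    (∀ x y, quatFun p' q' (x*y)=quatFun p' q' x*quatFun p' q' y) → (∀ x, quatFun p' q' x=1→x=1) →
    (∀ x, quatFun p' q' (quatFun p q x)=quatFun p q (quatFun p q (quatFun p' q' x))) →
    ∃ a₀ b₀ : Q8, a₀^2≠1 ∧ b₀^2=a₀^2 ∧ b₀*a₀*b₀⁻¹=a₀⁻¹ ∧ quatFun p q a₀=b₀ ∧ quatFun p q b₀=b₀*a₀ ∧
      quatFun p' q' a₀=b₀⁻¹ ∧ quatFun p' q' b₀=a₀⁻¹ ∧ (∀ w, w*quatFun p' q' w≠a 2) := by
  decide +kernel

set_option synthInstance.maxHeartbeats 0 in
set_option synthInstance.maxSize 10000 in
theorem fix_aux : ∀ p q : Q8, (∀ x y, quatFun p q (x*y)=quatFun p q x*quatFun p q y) →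
    (∀ x, quatFun p q (quatFun p q (quatFun p q x))=x) → (∃ x, quatFun p q x≠x) →
    ∀ x, quatFun p q x = x → x ^ 2 = 1 := by
  decide +kernel

set_option synthInstance.maxHeartbeats 0 in
set_option synthInstance.maxSize 10000 in
theorem ker_aux₁ : ∀ p q : Q8, (∀ x y, quatFun p q (x*y)=quatFun p q x*quatFun p q y) →
    (∀ x, quatFun p q (quatFun p q (quatFun p q x))=x) → (∃ x, quatFun p q x≠x) → ∀ p' q' : Q8,
    (∀ x y, quatFun p' q' (x*y)=quatFun p' q' x*quatFun p' q' y) →
    (∀ w, quatFun p' q' w = w ∨ quatFun p' q' w = w * a 2) →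
    ¬ (∀ x, quatFun p' q' (quatFun p q x)=quatFun p q (quatFun p q (quatFun p' q' x))) := by
  decide +kernel

set_option synthInstance.maxHeartbeats 0 in
set_option synthInstance.maxSize 10000 in
theorem ker_aux₂ : ∀ p q : Q8, (∀ x y, quatFun p q (x*y)=quatFun p q x*quatFun p q y) →
    (∀ x, quatFun p q (quatFun p q (quatFun p q x))=x) → (∃ x, quatFun p q x≠x) → ∀ p' q' : Q8,
    (∀ x y, quatFun p' q' (x*y)=quatFun p' q' x*quatFun p' q' y) →
    (∀ w, quatFun p' q' w = w ∨ quatFun p' q' w = w * a 2) →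
    (∀ x, quatFun p' q' (quatFun p q x)=quatFun p q (quatFun p' q' x)) →
    ∀ x, quatFun p' q' x = x := by
  decide +kernel

theorem ne_of_ne_one {τ : MulAut Q8} (h1 : τ ≠ 1) : ∃ x, τ x ≠ x := by
  by_contra h
  push Not at h
  exact h1 (MulEquiv.ext h)

theorem label (τ γ : MulAut Q8) (h3 : ∀ x, τ (τ (τ x)) = x) (h1 : τ ≠ 1)
    (hγ : ∀ x, γ (τ x) = τ (τ (γ x))) :
    ∃ a₀ b₀ : Q8, a₀^2≠1 ∧ b₀^2=a₀^2 ∧ b₀*a₀*b₀⁻¹=a₀⁻¹ ∧ τ a₀=b₀ ∧ τ b₀=b₀*a₀ ∧
      γ a₀=b₀⁻¹ ∧ γ b₀=a₀⁻¹ ∧ (∀ w, w*γ w≠a 2) := by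
  have hτ : ∀ x, quatFun (τ (a 1)) (τ (xa 0)) x = τ x := fun x => (aut_word τ x).symm
  have hγ' : ∀ x, quatFun (γ (a 1)) (γ (xa 0)) x = γ x := fun x => (aut_word γ x).symm
  have := label_aux (τ (a 1)) (τ (xa 0)) (by simp only [hτ]; exact fun x y => map_mul τ x y)
    (by simp only [hτ]; exact h3) (by simp only [hτ]; exact ne_of_ne_one h1) (γ (a 1)) (γ (xa 0))
    (by simp only [hγ']; exact fun x y => map_mul γ x y)
    (by simp only [hγ']; exact fun x hx => by simpa using hx)
    (by simp only [hτ, hγ']; exact hγ)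
  simpa only [hτ, hγ'] using this

theorem fix_sq (τ : MulAut Q8) (h3 : ∀ x, τ (τ (τ x)) = x) (h1 : τ ≠ 1) {x : Q8} (hx : τ x = x) :
    x ^ 2 = 1 := by
  have hτ : ∀ x, quatFun (τ (a 1)) (τ (xa 0)) x = τ x := fun x => (aut_word τ x).symm
  exact fix_aux (τ (a 1)) (τ (xa 0)) (by simp only [hτ]; exact fun x y => map_mul τ x y)
    (by simp only [hτ]; exact h3) (by simp only [hτ]; exact ne_of_ne_one h1) x (by rw [hτ]; exact hx)

theorem ker₁ (τ γ : MulAut Q8) (h3 : ∀ x, τ (τ (τ x)) = x) (h1 : τ ≠ 1)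
    (hw : ∀ w, γ w = w ∨ γ w = w * a 2) : ¬ (∀ x, γ (τ x) = τ (τ (γ x))) := by
  have hτ : ∀ x, quatFun (τ (a 1)) (τ (xa 0)) x = τ x := fun x => (aut_word τ x).symm
  have hγ' : ∀ x, quatFun (γ (a 1)) (γ (xa 0)) x = γ x := fun x => (aut_word γ x).symm
  have := ker_aux₁ (τ (a 1)) (τ (xa 0)) (by simp only [hτ]; exact fun x y => map_mul τ x y)
    (by simp only [hτ]; exact h3) (by simp only [hτ]; exact ne_of_ne_one h1) (γ (a 1)) (γ (xa 0))
    (by simp only [hγ']; exact fun x y => map_mul γ x y)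
    (by simp only [hγ']; exact hw)
  simpa only [hτ, hγ'] using this

theorem ker₂ (τ γ : MulAut Q8) (h3 : ∀ x, τ (τ (τ x)) = x) (h1 : τ ≠ 1)
    (hw : ∀ w, γ w = w ∨ γ w = w * a 2) (hc : ∀ x, γ (τ x) = τ (γ x)) : γ = 1 := by
  have hτ : ∀ x, quatFun (τ (a 1)) (τ (xa 0)) x = τ x := fun x => (aut_word τ x).symm
  have hγ' : ∀ x, quatFun (γ (a 1)) (γ (xa 0)) x = γ x := fun x => (aut_word γ x).symm
  have := ker_aux₂ (τ (a 1)) (τ (xa 0)) (by simp only [hτ]; exact fun x y => map_mul τ x y)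
    (by simp only [hτ]; exact h3) (by simp only [hτ]; exact ne_of_ne_one h1) (γ (a 1)) (γ (xa 0))
    (by simp only [hγ']; exact fun x y => map_mul γ x y)
    (by simp only [hγ']; exact hw) (by simp only [hτ, hγ']; exact hc)
  simp only [hγ'] at this
  exact MulEquiv.ext this

theorem q8_center : ∀ w : Q8, (∀ x : Q8, w * x * w⁻¹ = x) → w = 1 ∨ w = a 2 := by decide +kernel

theorem q8_sq : ∀ w : Q8, w ^ 2 = 1 → w = 1 ∨ w = a 2 := by decide +kernel

theorem q8_four : ∀ w : Q8, w ^ 4 = 1 := by decide +kernel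

theorem q8_a2_sq : (a 2 : Q8) ^ 2 = 1 := by decide +kernel

theorem q8_sq_ne : ∀ w : Q8, w ^ 2 ≠ 1 → w ^ 2 = a 2 := by decide +kernel

theorem q8_a2_central : ∀ w : Q8, (a 2 : Q8) * w = w * a 2 := by decide +kernel

theorem q8_card : Nat.card Q8 = 8 := by
  rw [Nat.card_eq_fintype_card, QuaternionGroup.card]

end Q8facts

section embed

variable {Q : Type*} [Group Q] {V : Subgroup Q} [hVn : V.Normal] (e : V ≃* Q8)

/-- The embedding `Q₈ → Q`. -/
noncomputable def io : Q8 →* Q := V.subtype.comp e.symm.toMonoidHom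

theorem io_inj : Function.Injective (io e) :=
  V.subtype_injective.comp e.symm.injective

theorem io_mem (w : Q8) : io e w ∈ V := (e.symm w).2

theorem exists_io {x : Q} (hx : x ∈ V) : ∃ w, io e w = x :=
  ⟨e ⟨x, hx⟩, by simp [io]⟩

/-- The action on `Q₈`. -/
noncomputable def cj : Q →* MulAut Q8 := (MulAut.congr e).toMonoidHom.comp MulAut.conjNormal

theorem io_cj (q : Q) (w : Q8) : io e (cj e q w) = q * io e w * q⁻¹ := by
  simp [io, cj, MulAut.congr]

theorem cj_eq_one_iff (q : Q) : cj e q = 1 ↔ q ∈ centralizer (V : Set Q) := by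
  constructor
  · intro h
    rw [mem_centralizer_iff]
    intro v hv
    obtain ⟨w, rfl⟩ := exists_io e hv
    have := io_cj e q w
    rw [h] at this
    simp only [MulAut.one_apply] at this
    rw [eq_comm, mul_inv_eq_iff_eq_mul] at this
    exact this.symm
  · intro h
    ext1 w
    apply io_inj e
    rw [io_cj, MulAut.one_apply, ← mem_centralizer_iff.mp h _ (io_mem e w)]
    simp

end embed

section main

variable {Q : Type*} [Group Q] [Finite Q] {V : Subgroup Q} [hVn : V.Normal]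

theorem card_V (e : V ≃* Q8) : Nat.card V = 8 := by
  rw [Nat.card_congr e.toEquiv, q8_card]

theorem isPGroup_V (e : V ≃* Q8) : IsPGroup 2 V :=
  IsPGroup.of_card (n := 3) (by rw [card_V e]; norm_num)

theorem ker_le (e : V ≃* Q8) (hC : centralizer (V : Set Q) ≤ V) : (cj e).ker ≤ zpowers (io e (a 2)) := by
  intro q hq
  have hq' : q ∈ centralizer (V : Set Q) := (cj_eq_one_iff e q).1 hq
  obtain ⟨w, rfl⟩ := exists_io e (hC hq')
  have hw : w = 1 ∨ w = a 2 := by
    apply q8_center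
    intro x
    apply io_inj e
    rw [map_mul, map_mul, map_inv]
    rw [← mem_centralizer_iff.mp hq' _ (io_mem e x)]
    simp
  rcases hw with rfl | rfl
  · simp
  · exact mem_zpowers _

theorem orderOf_z (e : V ≃* Q8) : orderOf (io e (a 2)) = 2 := by
  apply orderOf_eq_prime
  · rw [← map_pow, q8_a2_sq, map_one]
  · intro h
    have := io_inj e (h.trans (map_one (io e)).symm)
    revert this
    decide +kernel

theorem card_dvd_48 (e : V ≃* Q8) (hC : centralizer (V : Set Q) ≤ V) : Nat.card Q ∣ 48 := by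
  have h1 : Nat.card (cj e).ker * Nat.card (cj e).range = Nat.card Q := by
    rw [← Subgroup.index_ker, Subgroup.card_mul_index]
  have h2 : Nat.card (cj e).ker ∣ 2 := by
    have := Subgroup.card_dvd_of_le (ker_le e hC)
    rwa [Nat.card_zpowers, orderOf_z] at this
  have h3 : Nat.card (cj e).range ∣ 24 := by
    refine (Subgroup.card_subgroup_dvd_card _).trans ?_
    exact Cfsg.Agent.Lib.PermMod.MinNormal.card_mulAut_quaternion_dvd
  rw [← h1]
  exact mul_dvd_mul h2 h3

theorem card_eq_48 (e : V ≃* Q8) (hC : centralizer (V : Set Q) ≤ V)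
    (hns : ¬ ∃ P : Sylow 2 Q, (P : Subgroup Q).Normal) : Nat.card Q = 48 := by
  have h1 := card_dvd_48 e hC
  have h2 : Nat.card V * V.index = Nat.card Q := Subgroup.card_mul_index V
  rw [card_V e] at h2
  have hpos : 0 < Nat.card Q := Nat.card_pos
  have h3 : V.index ∣ 6 := by
    rw [← h2] at h1
    exact Nat.dvd_of_mul_dvd_mul_left (by norm_num : 0 < 8) h1
  have h4 : V.index ≤ 6 := Nat.le_of_dvd (by norm_num) h3
  haveI : Fact (Nat.Prime 2) := ⟨Nat.prime_two⟩
  have hV : ¬ ¬ (2 ∣ V.index) := by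
    intro hd
    exact hns ⟨(isPGroup_V e).toSylow hd, by simpa using hVn⟩
  interval_cases hi : V.index
  · omega
  · exact absurd (by norm_num) hV
  · exfalso
    have h16 : Nat.card Q = 2 ^ 4 := by omega
    have hp : IsPGroup 2 Q := IsPGroup.of_card h16
    have hp' : IsPGroup 2 (⊤ : Subgroup Q) := hp.to_subgroup ⊤
    exact hns ⟨hp'.toSylow (by simp), by simp⟩
  · exact absurd (by norm_num) hV
  · exact absurd h3 (by norm_num)
  · exact absurd (by norm_num) hV
  · omega

theorem zp3 {y x : Q} (hy : orderOf y = 3) (hx : x ∈ zpowers y) : x = 1 ∨ x = y ∨ x = y⁻¹ := by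
  obtain ⟨i, rfl⟩ := hx
  simp only
  rw [← zpow_mod_orderOf, hy]
  have h3 : y ^ 3 = 1 := by rw [← hy, pow_orderOf_eq_one]
  have : i % ((3 : ℕ) : ℤ) = 0 ∨ i % ((3 : ℕ) : ℤ) = 1 ∨ i % ((3 : ℕ) : ℤ) = 2 := by omega
  rcases this with h | h | h <;> rw [h]
  · simp
  · simp
  · right; right
    rw [eq_inv_iff_mul_eq_one, zpow_ofNat, ← pow_succ]
    exact h3

theorem exists_y_g (e : V ≃* Q8) (hC : centralizer (V : Set Q) ≤ V)
    (hns : ¬ ∃ P : Sylow 2 Q, (P : Subgroup Q).Normal) :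
    ∃ y g : Q, orderOf y = 3 ∧ y ∉ V ∧ g * y * g⁻¹ = y⁻¹ ∧ g ^ 2 ∈ V ∧ g ∉ V := by
  classical
  have h48 := card_eq_48 e hC hns
  have hV8 := card_V e
  have hidx : V.index = 6 := by
    have := Subgroup.card_mul_index V
    rw [hV8, h48] at this
    omega
  haveI : Fact (Nat.Prime 3) := ⟨Nat.prime_three⟩
  haveI : Fact (Nat.Prime 2) := ⟨Nat.prime_two⟩
  obtain ⟨y, hy⟩ := exists_prime_orderOf_dvd_card' (G := Q) 3 (by rw [h48]; norm_num)
  have hyV : y ∉ V := by
    intro h
    have := Subgroup.orderOf_dvd_natCard V h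
    rw [hy, hV8] at this
    omega
  let π := QuotientGroup.mk' V
  have hπ : ∀ x, π x = 1 ↔ x ∈ V := fun x => QuotientGroup.eq_one_iff x
  have hπs : Function.Surjective π := QuotientGroup.mk'_surjective V
  have hK : Nat.card (Q ⧸ V) = 6 := hidx
  have hoy : orderOf (π y) = 3 := by
    apply orderOf_eq_prime
    · rw [← map_pow, ← hy, pow_orderOf_eq_one, map_one]
    · rwa [Ne, hπ]
  set L := (zpowers (π y)).comap π with hL
  have hLidx : L.index = 2 := by
    rw [hL, Subgroup.index_comap_of_surjective _ hπs]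
    have := Subgroup.card_mul_index (zpowers (π y))
    rw [Nat.card_zpowers, hoy, hK] at this
    omega
  haveI hLn : L.Normal := Subgroup.normal_of_index_eq_two hLidx
  have hyL : y ∈ L := mem_zpowers (π y)
  have hVL : V ≤ L := by
    intro v hv
    change π v ∈ zpowers (π y)
    rw [(hπ v).2 hv]
    exact one_mem _
  have hP3 : IsPGroup 3 (zpowers y) :=
    IsPGroup.of_card (n := 1) (by rw [Nat.card_zpowers, hy]; norm_num)
  have hP3i : ¬ 3 ∣ (zpowers y).index := by
    have := Subgroup.card_mul_index (zpowers y)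
    rw [Nat.card_zpowers, hy, h48] at this
    omega
  let P₀ : Sylow 3 Q := hP3.toSylow hP3i
  have hP₀ : (P₀ : Subgroup Q) = zpowers y := IsPGroup.toSylow_coe hP3 hP3i
  have hFr := Sylow.normalizer_sup_eq_top' P₀ (N := L) (by rw [hP₀]; exact (zpowers_le).2 hyL)
  have hP₀s : ((P₀ : Sylow 3 Q) : Set Q) = ((zpowers y : Subgroup Q) : Set Q) := by
    rw [← hP₀]
    rfl
  rw [hP₀s] at hFr
  obtain ⟨g₁, hg₁N, hg₁L⟩ : ∃ g₁ ∈ normalizer ((zpowers y : Subgroup Q) : Set Q), g₁ ∉ L := by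
    by_contra h
    push Not at h
    have h' : normalizer ((zpowers y : Subgroup Q) : Set Q) ≤ L := h
    rw [sup_of_le_right h'] at hFr
    rw [hFr, Subgroup.index_top] at hLidx
    omega
  obtain ⟨k, m, hm, hn⟩ := Nat.exists_eq_two_pow_mul_odd (orderOf_pos g₁).ne'
  set g := g₁ ^ m with hg
  have hg2k : g ^ (2 ^ k) = 1 := by
    rw [hg, ← pow_mul, mul_comm, ← hn, pow_orderOf_eq_one]
  have hgL : g ∉ L := by
    obtain ⟨t, ht⟩ := hm
    intro hin
    apply hg₁L
    have h1 : g₁ * g₁ ∈ L := Subgroup.mul_self_mem_of_index_two hLidx g₁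
    have h2 : (g₁ * g₁) ^ t ∈ L := pow_mem h1 t
    have h3 : g = (g₁ * g₁) ^ t * g₁ := by
      rw [hg, ht, pow_succ, ← pow_two, ← pow_mul]
    rw [h3] at hin
    exact (Subgroup.mul_mem_cancel_left L h2).1 hin
  have hgV : g ∉ V := fun h => hgL (hVL h)
  have hgN : g ∈ normalizer ((zpowers y : Subgroup Q) : Set Q) := pow_mem hg₁N m
  have hg2 : g ^ 2 ∈ V := by
    rw [← hπ, map_pow]
    have hd : orderOf (π g) ∣ 6 := by
      rw [← hK]
      exact orderOf_dvd_natCard _
    have hd2 : orderOf (π g) ∣ 2 ^ k := by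
      apply orderOf_dvd_of_pow_eq_one
      rw [← map_pow, hg2k, map_one]
    have hco : Nat.Coprime (orderOf (π g)) 3 := by
      apply Nat.Coprime.coprime_dvd_left hd2
      exact Nat.Coprime.pow_left k (by norm_num)
    have : orderOf (π g) ∣ 2 := hco.dvd_of_dvd_mul_right (by simpa using hd)
    exact orderOf_dvd_iff_pow_eq_one.mp this
  have hconj : g * y * g⁻¹ ∈ zpowers y := (mem_normalizer_iff.mp hgN y).1 (mem_zpowers y)
  refine ⟨y, g, hy, hyV, ?_, hg2, hgV⟩
  rcases zp3 hy hconj with h | h | h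
  · exfalso
    have h1 : y = 1 := by
      have : g * y = g := by
        rw [mul_inv_eq_one] at h
        exact h
      simpa using this
    rw [h1, orderOf_one] at hy
    omega
  · exfalso
    have hcom : Commute (π y) (π g) := by
      have : g * y = y * g := by
        rwa [mul_inv_eq_iff_eq_mul] at h
      change π y * π g = π g * π y
      rw [← map_mul, ← map_mul, this]
    have hog : orderOf (π g) = 2 := by
      apply orderOf_eq_prime
      · rw [← map_pow]
        exact (hπ _).2 hg2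
      · rwa [Ne, hπ]
    have h6 : orderOf (π y * π g) = Nat.card (Q ⧸ V) := by
      rw [hcom.orderOf_mul_eq_mul_orderOf_of_coprime (by rw [hoy, hog]; norm_num), hoy, hog, hK]
    haveI hcyc : IsCyclic (Q ⧸ V) := isCyclic_of_orderOf_eq_card _ h6
    have hcomm : ∀ a b : Q ⧸ V, a * b = b * a := (IsCyclic.commGroup (α := Q ⧸ V)).mul_comm
    have hSn : (zpowers (π g)).Normal := ⟨fun n hn x => by rw [hcomm x n]; simpa using hn⟩
    set S := (zpowers (π g)).comap π with hS
    have hSnn : S.Normal := hSn.comap π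
    have hSidx : S.index = 3 := by
      rw [hS, Subgroup.index_comap_of_surjective _ hπs]
      have := Subgroup.card_mul_index (zpowers (π g))
      rw [Nat.card_zpowers, hog, hK] at this
      omega
    have hScard : Nat.card S = 2 ^ 4 := by
      have := Subgroup.card_mul_index S
      rw [hSidx, h48] at this
      omega
    have hSp : IsPGroup 2 S := IsPGroup.of_card hScard
    exact hns ⟨hSp.toSylow (by rw [hSidx]; norm_num), by simpa using hSnn⟩
  · exact h

theorem exists_labeled (e : V ≃* Q8) (hC : centralizer (V : Set Q) ≤ V)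
    (hns : ¬ ∃ P : Sylow 2 Q, (P : Subgroup Q).Normal) :
    ∃ (y g : Q) (a₀ b₀ : Q8), orderOf y = 3 ∧ y ∉ V ∧ g * y * g⁻¹ = y⁻¹ ∧ g ^ 2 ∈ V ∧ g ∉ V ∧
      a₀ ^ 2 ≠ 1 ∧ b₀ ^ 2 = a₀ ^ 2 ∧ b₀ * a₀ * b₀⁻¹ = a₀⁻¹ ∧
      cj e y a₀ = b₀ ∧ cj e y b₀ = b₀ * a₀ ∧ cj e g a₀ = b₀⁻¹ ∧ cj e g b₀ = a₀⁻¹ ∧
      (∀ w, w * cj e g w ≠ a 2) ∧ (g ^ 2 = 1 ∨ g ^ 2 = io e (a 2)) ∧
      (∀ x, cj e y (cj e y (cj e y x)) = x) ∧ cj e y ≠ 1 := by
  obtain ⟨y, g, hy, hyV, hgy, hg2, hgV⟩ := exists_y_g e hC hns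
  have hy3 : y ^ 3 = 1 := by rw [← hy, pow_orderOf_eq_one]
  have h3 : ∀ x, cj e y (cj e y (cj e y x)) = x := by
    intro x
    have h : (cj e y) ^ 3 = 1 := by rw [← map_pow, hy3, map_one]
    have := DFunLike.congr_fun h x
    simpa [pow_succ, MulAut.mul_apply] using this
  have h1 : cj e y ≠ 1 := fun h => hyV (hC ((cj_eq_one_iff e y).1 h))
  have hinv : y⁻¹ = y * y := by
    rw [inv_eq_iff_mul_eq_one, ← hy3, pow_succ, pow_two, mul_assoc]
  have hγ : ∀ x, cj e g (cj e y x) = cj e y (cj e y (cj e g x)) := by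
    intro x
    have h0 : g * y = y * y * g := by
      rw [← hinv, ← hgy]
      group
    have h : cj e g * cj e y = cj e y * cj e y * cj e g := by
      rw [← map_mul, ← map_mul, ← map_mul, h0]
    exact DFunLike.congr_fun h x
  obtain ⟨a₀, b₀, h1', h2', h3', h4', h5', h6', h7', h8'⟩ := label (cj e y) (cj e g) h3 h1 hγ
  refine ⟨y, g, a₀, b₀, hy, hyV, hgy, hg2, hgV, h1', h2', h3', h4', h5', h6', h7', h8', ?_, h3, h1⟩
  obtain ⟨w, hw⟩ := exists_io e hg2
  have hfix : cj e y w = w := by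
    apply io_inj e
    rw [io_cj, hw]
    have h0 : g ^ 2 * y * (g ^ 2)⁻¹ = y := by
      calc g ^ 2 * y * (g ^ 2)⁻¹ = g * (g * y * g⁻¹) * g⁻¹ := by rw [pow_two]; group
        _ = g * y⁻¹ * g⁻¹ := by rw [hgy]
        _ = (g * y * g⁻¹)⁻¹ := by group
        _ = y := by rw [hgy, inv_inv]
    have h0' : g ^ 2 * y = y * g ^ 2 := by
      rwa [mul_inv_eq_iff_eq_mul] at h0
    rw [← h0']
    group
  rcases q8_sq w (fix_sq _ h3 h1 hfix) with rfl | rfl
  · left
    rw [← hw, map_one]
  · right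
    exact hw.symm

end main

section theta

variable {W : Type*} [Group W]

open SemidirectProduct

/-- The homomorphism `SL(2,3) → W` given by generators. -/
noncomputable def Theta (i j y : W) (hi : i ^ 4 = 1) (hj : j ^ 2 = i ^ 2) (hji : j * i * j⁻¹ = i⁻¹)
    (hy : y ^ 3 = 1) (hyi : y * i * y⁻¹ = j) (hyj : y * j * y⁻¹ = j * i) : G₀ →* W :=
  (modelHom i j y hi hj hji hy hyi hyj).comp E₀.symm.toMonoidHom

theorem E₀_symm_A : E₀.symm A₀ = inl (a 1) := by
  apply E₀.injective
  rw [MulEquiv.apply_symm_apply]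
  change A₀ = F₀ (inl (a 1))
  decide +kernel

theorem E₀_symm_X : E₀.symm X₀ = inl (xa 0) := by
  apply E₀.injective
  rw [MulEquiv.apply_symm_apply]
  change X₀ = F₀ (inl (xa 0))
  decide +kernel

theorem E₀_symm_Y : E₀.symm Y₀ = inr (Multiplicative.ofAdd 1) := by
  apply E₀.injective
  rw [MulEquiv.apply_symm_apply]
  change Y₀ = F₀ (inr (Multiplicative.ofAdd 1))
  decide +kernel

variable (i j y : W) (hi : i ^ 4 = 1) (hj : j ^ 2 = i ^ 2) (hji : j * i * j⁻¹ = i⁻¹)
    (hy : y ^ 3 = 1) (hyi : y * i * y⁻¹ = j) (hyj : y * j * y⁻¹ = j * i)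

theorem Theta_A : Theta i j y hi hj hji hy hyi hyj A₀ = i := by
  change modelHom i j y hi hj hji hy hyi hyj (E₀.symm A₀) = i
  rw [E₀_symm_A, modelHom_inl, quatHom_a]
  have h2 : (1 : ZMod (2 * 2)).val = 1 := by decide +kernel
  rw [h2, pow_one]

theorem Theta_X : Theta i j y hi hj hji hy hyi hyj X₀ = j := by
  change modelHom i j y hi hj hji hy hyi hyj (E₀.symm X₀) = j
  rw [E₀_symm_X, modelHom_inl, quatHom_xa]
  have h2 : (0 : ZMod (2 * 2)).val = 0 := by decide +kernel
  rw [h2, pow_zero, mul_one]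

theorem Theta_Y : Theta i j y hi hj hji hy hyi hyj Y₀ = y := by
  change modelHom i j y hi hj hji hy hyi hyj (E₀.symm Y₀) = y
  rw [E₀_symm_Y, modelHom_inr]
  change y ^ (Multiplicative.toAdd (Multiplicative.ofAdd (1 : ZMod 3))).val = y
  have h2 : (Multiplicative.toAdd (Multiplicative.ofAdd (1 : ZMod 3))).val = 1 := by decide +kernel
  rw [h2, pow_one]

theorem Theta_inj (hne : i ^ 2 ≠ 1) : Function.Injective (Theta i j y hi hj hji hy hyi hyj) := by
  apply sl23_hom_injective
  rwa [map_pow, Theta_A]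

theorem closure_gens : Subgroup.closure ({A₀, X₀, Y₀} : Set G₀) = ⊤ := by
  have h : ∀ s : G₀, ∃ u v w : Fin 4, s = A₀ ^ u.val * X₀ ^ v.val * Y₀ ^ w.val := by decide +kernel
  rw [eq_top_iff]
  intro s _
  obtain ⟨u, v, w, rfl⟩ := h s
  have hA : A₀ ∈ Subgroup.closure ({A₀, X₀, Y₀} : Set G₀) := subset_closure (by simp)
  have hX : X₀ ∈ Subgroup.closure ({A₀, X₀, Y₀} : Set G₀) := subset_closure (by simp)
  have hY : Y₀ ∈ Subgroup.closure ({A₀, X₀, Y₀} : Set G₀) := subset_closure (by simp)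
  exact mul_mem (mul_mem (pow_mem hA _) (pow_mem hX _)) (pow_mem hY _)

theorem sl23_sq : ∀ s : G₀, s ^ 2 = 1 → s = 1 ∨ s = A₀ ^ 2 := by decide +kernel

end theta

/-- Extending a homomorphism from a subgroup of index two. -/
theorem exists_ext {Q T : Type*} [Group Q] [Group T] (L : Subgroup Q) (g : Q)
    (hg2 : g * g = 1) (hL : ∀ q, q ∉ L → q * g ∈ L) (hN : ∀ l ∈ L, g * l * g ∈ L)
    (E : L →* T) (t : T) (ht : t * t = 1)
    (hconj : ∀ (l : Q) (hl : l ∈ L), E ⟨g * l * g, hN l hl⟩ = t * E ⟨l, hl⟩ * t) :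
    ∃ Ψ : Q →* T, (∀ (l : Q) (hl : l ∈ L), Ψ l = E ⟨l, hl⟩) ∧
      (∀ (q : Q) (hq : q ∉ L), Ψ q = E ⟨q * g, hL q hq⟩ * t) := by
  classical
  have hginv : g⁻¹ = g := inv_eq_of_mul_eq_one_left hg2
  let f : Q → T := fun q => if h : q ∈ L then E ⟨q, h⟩ else E ⟨q * g, hL q h⟩ * t
  have hf1 : ∀ (l : Q) (hl : l ∈ L), f l = E ⟨l, hl⟩ := fun l hl => dif_pos hl
  have hf2 : ∀ (q : Q) (hq : q ∉ L), f q = E ⟨q * g, hL q hq⟩ * t := fun q hq => dif_neg hq
  have hm : ∀ q r, f (q * r) = f q * f r := by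
    intro q r
    by_cases hq : q ∈ L <;> by_cases hr : r ∈ L
    · rw [hf1 _ (mul_mem hq hr), hf1 q hq, hf1 r hr, ← map_mul]
      rfl
    · have hqr : q * r ∉ L := fun h => hr ((Subgroup.mul_mem_cancel_left L hq).1 h)
      rw [hf2 _ hqr, hf1 q hq, hf2 r hr, ← mul_assoc, ← map_mul]
      congr 2
      apply Subtype.ext
      simp [mul_assoc]
    · have hqr : q * r ∉ L := fun h => hq ((Subgroup.mul_mem_cancel_right L hr).1 h)
      rw [hf2 _ hqr, hf2 q hq, hf1 r hr]
      have h1 : (⟨q * r * g, hL _ hqr⟩ : L) = ⟨q * g, hL q hq⟩ * ⟨g * r * g, hN r hr⟩ := by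
        apply Subtype.ext
        simp only [Subgroup.coe_mul]
        calc q * r * g = q * (g * g) * r * g := by rw [hg2, mul_one]
          _ = _ := by group
      rw [h1, map_mul, hconj r hr]
      simp only [mul_assoc]
      rw [ht, mul_one]
    · have hqg := hL q hq
      have hrg := hL r hr
      have hqr : q * r ∈ L := by
        have h2 := mul_mem hqg (hN _ hrg)
        have h3 : q * g * (g * (r * g) * g) = q * r := by
          calc q * g * (g * (r * g) * g) = q * (g * g) * r * (g * g) := by group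
            _ = q * r := by rw [hg2]; group
        rwa [h3] at h2
      rw [hf1 _ hqr, hf2 q hq, hf2 r hr]
      have h1 : (⟨q * r, hqr⟩ : L) = ⟨q * g, hqg⟩ * ⟨g * (r * g) * g, hN _ hrg⟩ := by
        apply Subtype.ext
        simp only [Subgroup.coe_mul]
        calc q * r = q * (g * g) * r * (g * g) := by rw [hg2]; group
          _ = _ := by group
      rw [h1, map_mul, hconj _ hrg]
      simp only [mul_assoc]
  refine ⟨MonoidHom.mk' f hm, hf1, hf2⟩

section gl23

abbrev M23 := Matrix (Fin 2) (Fin 2) (ZMod 3)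

/-- The matrix inverting the element `Y₀`. -/
def T₀ : M23 := !![1, 2; 0, 2]

theorem T₀_sq : T₀ * T₀ = 1 := by decide +kernel
theorem T₀_det : T₀.det = 2 := by decide +kernel
theorem T₀_A : T₀ * (A₀ : M23) * T₀ = ((X₀⁻¹ : G₀) : M23) := by decide +kernel
theorem T₀_X : T₀ * (X₀ : M23) * T₀ = ((A₀⁻¹ : G₀) : M23) := by decide +kernel
theorem T₀_Y : T₀ * (Y₀ : M23) * T₀ = ((Y₀⁻¹ : G₀) : M23) := by decide +kernel

/-- Conjugation by `T₀` on `SL(2,3)`. -/
def sigma : G₀ →* G₀ :=
  MonoidHom.mk' (fun s => ⟨T₀ * s.1 * T₀, by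
    rw [Matrix.det_mul, Matrix.det_mul, s.2, T₀_det]
    decide +kernel⟩) (by
    intro s s'
    apply Subtype.ext
    change T₀ * (s.1 * s'.1) * T₀ = (T₀ * s.1 * T₀) * (T₀ * s'.1 * T₀)
    calc T₀ * (s.1 * s'.1) * T₀ = T₀ * s.1 * 1 * s'.1 * T₀ := by
          simp only [mul_one, mul_assoc]
      _ = T₀ * s.1 * (T₀ * T₀) * s'.1 * T₀ := by rw [T₀_sq]
      _ = _ := by simp only [mul_assoc])

theorem sigma_val (s : G₀) : ((sigma s : G₀) : M23) = T₀ * (s : M23) * T₀ := rfl

theorem sigma_A : sigma A₀ = X₀⁻¹ := Subtype.ext T₀_A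
theorem sigma_X : sigma X₀ = A₀⁻¹ := Subtype.ext T₀_X
theorem sigma_Y : sigma Y₀ = Y₀⁻¹ := Subtype.ext T₀_Y

/-- `T₀` as an element of `GL(2,3)`. -/
def tGL : GL (Fin 2) (ZMod 3) := ⟨T₀, T₀, T₀_sq, T₀_sq⟩

theorem card_GL23 : Nat.card (GL (Fin 2) (ZMod 3)) = 48 := by
  rw [Matrix.card_GL_field]
  simp [ZMod.card, Fin.prod_univ_two]

theorem iso_gl23 {Q : Type*} [Group Q] [Finite Q] (hcard : Nat.card Q = 48) (i j y g : Q)
    (hi : i ^ 4 = 1) (hj : j ^ 2 = i ^ 2) (hji : j * i * j⁻¹ = i⁻¹)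
    (hy : y ^ 3 = 1) (hyi : y * i * y⁻¹ = j) (hyj : y * j * y⁻¹ = j * i) (hne : i ^ 2 ≠ 1)
    (hy1 : y * y ≠ 1)
    (hg2 : g * g = 1) (hgi : g * i * g⁻¹ = j⁻¹) (hgj : g * j * g⁻¹ = i⁻¹) (hgy : g * y * g⁻¹ = y⁻¹) :
    Nonempty (Q ≃* GL (Fin 2) (ZMod 3)) := by
  classical
  set Θ := Theta i j y hi hj hji hy hyi hyj with hΘ
  have hinj : Function.Injective Θ := Theta_inj i j y hi hj hji hy hyi hyj hne
  have hmem : ∀ s, Θ s ∈ Θ.range := fun s => ⟨s, rfl⟩
  have hA : Θ A₀ = i := Theta_A i j y hi hj hji hy hyi hyj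
  have hX : Θ X₀ = j := Theta_X i j y hi hj hji hy hyi hyj
  have hY : Θ Y₀ = y := Theta_Y i j y hi hj hji hy hyi hyj
  set L := Θ.range with hL
  let εε : G₀ ≃* L := MonoidHom.ofInjective hinj
  have hεε : ∀ s, ((εε s : L) : Q) = Θ s := fun s => rfl
  have hcardL : Nat.card L = 24 := by
    rw [← Nat.card_congr εε.toEquiv, card_G₀]
  have hidx : L.index = 2 := by
    have := Subgroup.card_mul_index L
    rw [hcardL, hcard] at this
    omega
  haveI hLn : L.Normal := Subgroup.normal_of_index_eq_two hidx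
  have hginv : g⁻¹ = g := inv_eq_of_mul_eq_one_left hg2
  have hgL : g ∉ L := by
    rintro ⟨s, hs⟩
    have h1 : s ^ 2 = 1 := by
      apply hinj
      rw [map_pow, hs, pow_two, hg2, map_one]
    have hcomm : g * y = y * g → False := by
      intro h
      rw [mul_inv_eq_iff_eq_mul, h] at hgy
      have h2 := mul_right_cancel hgy
      apply hy1
      rw [eq_comm, inv_eq_iff_mul_eq_one] at h2
      exact h2
    rcases sl23_sq s h1 with rfl | rfl
    · rw [map_one] at hs
      apply hcomm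
      rw [← hs]
      simp
    · rw [map_pow, hA] at hs
      apply hcomm
      rw [← hs]
      have h3 : y * i ^ 2 * y⁻¹ = i ^ 2 := by
        calc y * i ^ 2 * y⁻¹ = (y * i * y⁻¹) ^ 2 := by simp [pow_two, mul_assoc]
          _ = i ^ 2 := by rw [hyi, hj]
      rw [mul_inv_eq_iff_eq_mul] at h3
      exact h3.symm
  have hLq : ∀ q, q ∉ L → q * g ∈ L := by
    intro q hq
    rw [Subgroup.mul_mem_iff_of_index_two hidx]
    exact ⟨fun h => absurd h hq, fun h => absurd h hgL⟩
  have hN : ∀ l ∈ L, g * l * g ∈ L := by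
    intro l hl
    have := hLn.conj_mem l hl g
    rwa [hginv] at this
  let ι : G₀ →* GL (Fin 2) (ZMod 3) := Matrix.SpecialLinearGroup.toGL
  let E : L →* GL (Fin 2) (ZMod 3) := ι.comp εε.symm.toMonoidHom
  have hE : ∀ (s : G₀) (h : Θ s ∈ L), E ⟨Θ s, h⟩ = ι s := by
    intro s h
    change ι (εε.symm ⟨Θ s, h⟩) = ι s
    congr 1
    rw [MulEquiv.symm_apply_eq]
    rfl
  have hσ : (MulAut.conj g).toMonoidHom.comp Θ = Θ.comp sigma := by
    apply MonoidHom.eq_of_eqOn_dense closure_gens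
    rintro s (rfl | rfl | rfl)
    · change g * Θ A₀ * g⁻¹ = Θ (sigma A₀)
      rw [sigma_A, map_inv, hA, hX, hgi]
    · change g * Θ X₀ * g⁻¹ = Θ (sigma X₀)
      rw [sigma_X, map_inv, hA, hX, hgj]
    · change g * Θ Y₀ * g⁻¹ = Θ (sigma Y₀)
      rw [sigma_Y, map_inv, hY, hgy]
  have hσ' : ∀ s, g * Θ s * g = Θ (sigma s) := by
    intro s
    have := DFunLike.congr_fun hσ s
    change g * Θ s * g⁻¹ = Θ (sigma s) at this
    rwa [hginv] at this
  have hconj : ∀ (l : Q) (hl : l ∈ L), E ⟨g * l * g, hN l hl⟩ = tGL * E ⟨l, hl⟩ * tGL := by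
    intro l hl
    obtain ⟨s, hs⟩ := id hl
    subst hs
    have h1 : (⟨g * Θ s * g, hN _ hl⟩ : L) = ⟨Θ (sigma s), hmem _⟩ := Subtype.ext (hσ' s)
    rw [h1, hE, hE]
    apply Units.ext
    rfl
  have ht : tGL * tGL = 1 := Units.ext T₀_sq
  obtain ⟨Ψ, hΨ1, hΨ2⟩ := exists_ext L g hg2 hLq hN E tGL ht hconj
  have hΨinj : Function.Injective Ψ := by
    rw [injective_iff_map_eq_one]
    intro q hq
    by_cases hqL : q ∈ L
    · rw [hΨ1 q hqL] at hq
      obtain ⟨s, hs'⟩ := id hqL
      subst hs'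
      rw [hE] at hq
      have hs : s = 1 := by
        apply Subtype.ext
        have := congrArg (fun u : GL (Fin 2) (ZMod 3) => (u : M23)) hq
        exact this
      rw [hs, map_one]
    · exfalso
      rw [hΨ2 q hqL] at hq
      obtain ⟨s, hs⟩ := hLq q hqL
      have h1 : (⟨q * g, hLq q hqL⟩ : L) = ⟨Θ s, hmem s⟩ := Subtype.ext hs.symm
      rw [h1, hE] at hq
      have h2 : (s : M23) * T₀ = 1 := congrArg (fun u : GL (Fin 2) (ZMod 3) => (u : M23)) hq
      have h3 := congrArg Matrix.det h2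
      rw [Matrix.det_mul, s.2, T₀_det, Matrix.det_one] at h3
      revert h3
      decide +kernel
  exact ⟨MulEquiv.ofBijective Ψ ((Nat.bijective_iff_injective_and_card Ψ).2
    ⟨hΨinj, by rw [hcard, card_GL23]⟩)⟩

end gl23

section octa

variable {Q : Type*} [Group Q] [Finite Q] {V : Subgroup Q} [hVn : V.Normal]

/-- the central involution -/
theorem cj_a2 (e : V ≃* Q8) (q : Q) : cj e q (a 2) = a 2 := by
  rcases q8_sq (cj e q (a 2)) (by rw [← map_pow, q8_a2_sq, map_one]) with h | h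
  · exfalso
    have : (a 2 : Q8) = 1 := (cj e q).injective (by rw [h, map_one])
    revert this
    decide +kernel
  · exact h

theorem z_comm (e : V ≃* Q8) (q : Q) : q * io e (a 2) = io e (a 2) * q := by
  have := io_cj e q (a 2)
  rw [cj_a2] at this
  rw [eq_comm, mul_inv_eq_iff_eq_mul] at this
  exact this

theorem center_eq (e : V ≃* Q8) (hC : centralizer (V : Set Q) ≤ V) :
    Subgroup.center Q = zpowers (io e (a 2)) := by
  apply le_antisymm
  · intro x hx
    apply ker_le e hC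
    rw [MonoidHom.mem_ker, cj_eq_one_iff, mem_centralizer_iff]
    intro v _
    exact (Subgroup.mem_center_iff.mp hx v)
  · rw [zpowers_le, Subgroup.mem_center_iff]
    intro q
    exact z_comm e q

theorem card_center (e : V ≃* Q8) (hC : centralizer (V : Set Q) ≤ V) :
    Nat.card (Subgroup.center Q) = 2 := by
  rw [center_eq e hC, Nat.card_zpowers, orderOf_z]

/-- Elements of `V` normalizing `⟨y⟩` are trivial or central. -/
theorem mem_V_norm (e : V ≃* Q8) {y : Q} (hy : orderOf y = 3) (hyV : y ∉ V)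
    (h3 : ∀ x, cj e y (cj e y (cj e y x)) = x) (h1 : cj e y ≠ 1) {x : Q} (hx : x ∈ V)
    (hN : x ∈ normalizer ((zpowers y : Subgroup Q) : Set Q)) : x = 1 ∨ x = io e (a 2) := by
  have hc : x * y * x⁻¹ ∈ zpowers y := (mem_normalizer_iff.mp hN y).1 (mem_zpowers y)
  have hc2 : x * y * x⁻¹ * y⁻¹ ∈ zpowers y := mul_mem hc (inv_mem (mem_zpowers y))
  have hc3 : x * y * x⁻¹ * y⁻¹ ∈ V := by
    have : x * y * x⁻¹ * y⁻¹ = x * (y * x⁻¹ * y⁻¹) := by group
    rw [this]
    exact mul_mem hx (hVn.conj_mem _ (inv_mem hx) y)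
  have hc4 : x * y * x⁻¹ * y⁻¹ = 1 := by
    rcases zp3 hy hc2 with h | h | h
    · exact h
    · rw [h] at hc3
      exact absurd hc3 hyV
    · rw [h] at hc3
      exact absurd (by simpa using hc3) hyV
  obtain ⟨w, rfl⟩ := exists_io e hx
  have hfix : cj e y w = w := by
    apply io_inj e
    rw [io_cj]
    rw [mul_inv_eq_one, mul_inv_eq_iff_eq_mul] at hc4
    rw [← hc4]
    group
  rcases q8_sq w (fix_sq _ h3 h1 hfix) with rfl | rfl
  · left
    exact map_one _
  · right
    rfl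

theorem octa_sylow (e : V ≃* Q8) (hcard : Nat.card Q = 48)
    {g : Q} {a₀ b₀ : Q8} (hg2 : g ^ 2 = io e (a 2)) (hgV : g ∉ V)
    (ha : a₀ ^ 2 ≠ 1) (hba : b₀ * a₀ * b₀⁻¹ = a₀⁻¹)
    (h8 : ∀ w, w * cj e g w ≠ a 2) (P : Sylow 2 Q) :
    Nonempty ((P : Subgroup Q) ≃* QuaternionGroup 4) := by
  classical
  haveI : Fact (Nat.Prime 2) := ⟨Nat.prime_two⟩
  have hV8 := card_V e
  have hidx : V.index = 6 := by
    have := Subgroup.card_mul_index V
    rw [hV8, hcard] at this
    omega
  let π := QuotientGroup.mk' V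
  have hπ : ∀ x, π x = 1 ↔ x ∈ V := fun x => QuotientGroup.eq_one_iff x
  have hπs : Function.Surjective π := QuotientGroup.mk'_surjective V
  have hK : Nat.card (Q ⧸ V) = 6 := hidx
  have hog : orderOf (π g) = 2 := by
    apply orderOf_eq_prime
    · rw [← map_pow, hg2]
      exact (hπ _).2 (io_mem e _)
    · rwa [Ne, hπ]
  set S := (zpowers (π g)).comap π with hS
  have hSidx : S.index = 3 := by
    rw [hS, Subgroup.index_comap_of_surjective _ hπs]
    have := Subgroup.card_mul_index (zpowers (π g))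
    rw [Nat.card_zpowers, hog, hK] at this
    omega
  have hScard : Nat.card S = 2 ^ 4 := by
    have := Subgroup.card_mul_index S
    rw [hSidx, hcard] at this
    omega
  have hSp : IsPGroup 2 S := IsPGroup.of_card hScard
  have hVS : V ≤ S := by
    intro v hv
    change π v ∈ zpowers (π g)
    rw [(hπ v).2 hv]
    exact one_mem _
  -- the involutions of `S`
  have hinv : ∀ x ∈ S, x ^ 2 = 1 → x ≠ 1 → x = io e (a 2) := by
    intro x hx hx2 hx1
    have hcase : x ∈ V ∨ x * g⁻¹ ∈ V := by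
      have hx' : π x ∈ zpowers (π g) := hx
      obtain ⟨i, hi⟩ := hx'
      have hi' : π g ^ i = π x := hi
      rcases Int.emod_two_eq_zero_or_one i with h0 | h0
      · left
        rw [← hπ, ← hi', ← zpow_mod_orderOf, hog]
        rw [show i % ((2 : ℕ) : ℤ) = 0 from h0]
        simp
      · right
        rw [← hπ, map_mul, map_inv, ← hi', ← zpow_mod_orderOf, hog]
        rw [show i % ((2 : ℕ) : ℤ) = 1 from h0]
        simp
    rcases hcase with hxV | hxg
    · obtain ⟨w, rfl⟩ := exists_io e hxV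
      have hw2 : w ^ 2 = 1 := by
        apply io_inj e
        rw [map_pow, hx2, map_one]
      rcases q8_sq w hw2 with rfl | rfl
      · exact absurd (map_one _) hx1
      · rfl
    · exfalso
      obtain ⟨w, hw⟩ := exists_io e hxg
      have hxe : x = io e w * g := by
        rw [hw]
        group
      apply h8 w
      have h1 : x ^ 2 = io e (w * cj e g w * a 2) := by
        rw [hxe, map_mul, map_mul, io_cj, ← hg2, pow_two, pow_two]
        group
      rw [hx2] at h1
      have h2 : w * cj e g w * a 2 = 1 := io_inj e (by rw [← h1, map_one])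
      have h3 : (a 2 : Q8) * a 2 = 1 := by decide +kernel
      calc w * cj e g w = w * cj e g w * (a 2 * a 2) := by rw [h3, mul_one]
        _ = (w * cj e g w * a 2) * a 2 := by simp only [mul_assoc]
        _ = a 2 := by rw [h2, one_mul]
  -- `S` has a unique subgroup of order two
  have hzS : io e (a 2) ∈ S := hVS (io_mem e _)
  have huniq : ∀ H K : Subgroup S, Nat.card H = 2 → Nat.card K = 2 → H = K := by
    have key : ∀ H : Subgroup S, Nat.card H = 2 → (⟨io e (a 2), hzS⟩ : S) ∈ H := by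
      intro H hH
      haveI : Fact (Nat.Prime 2) := ⟨Nat.prime_two⟩
      obtain ⟨x, hx⟩ := exists_prime_orderOf_dvd_card' (G := H) 2 (by rw [hH])
      have hx2 : ((x : S) : Q) ^ 2 = 1 := by
        have : x ^ 2 = 1 := by rw [← hx, pow_orderOf_eq_one]
        have h2 := congrArg (fun u : H => ((u : S) : Q)) this
        simpa using h2
      have hx1 : ((x : S) : Q) ≠ 1 := by
        intro h
        have : x = 1 := Subtype.ext (Subtype.ext h)
        rw [this, orderOf_one] at hx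
        omega
      have h3 := hinv _ (x : S).2 hx2 hx1
      have h4 : (x : S) = ⟨io e (a 2), hzS⟩ := Subtype.ext h3
      rw [← h4]
      exact x.2
    have key2 : ∀ H : Subgroup S, Nat.card H = 2 → H = zpowers (⟨io e (a 2), hzS⟩ : S) := by
      intro H hH
      symm
      apply Subgroup.eq_of_le_of_card_ge
      · rw [zpowers_le]
        exact key H hH
      · rw [hH, Nat.card_zpowers]
        have : orderOf (⟨io e (a 2), hzS⟩ : S) = orderOf (io e (a 2)) :=
          Subgroup.orderOf_mk _ _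
        rw [this, orderOf_z]
    intro H K hH hK
    rw [key2 H hH, key2 K hK]
  rcases Cfsg.Agent.S0016.result 2 hSp huniq with hcyc | ⟨-, n, ⟨φ⟩⟩
  · exfalso
    have hcomm : ∀ u v : S, u * v = v * u := (IsCyclic.commGroup (α := S)).mul_comm
    have h1 := hcomm ⟨io e b₀, hVS (io_mem e _)⟩ ⟨io e a₀, hVS (io_mem e _)⟩
    have h2 : io e b₀ * io e a₀ = io e a₀ * io e b₀ := congrArg Subtype.val h1
    have h3 : b₀ * a₀ = a₀ * b₀ := io_inj e (by rw [map_mul, map_mul, h2])
    have h4 : a₀ = a₀⁻¹ := by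
      rw [← hba, h3]
      group
    apply ha
    rw [pow_two]
    nth_rw 1 [h4]
    group
  · have hc : Nat.card (QuaternionGroup (2 ^ n)) = 4 * 2 ^ n := by
      haveI : NeZero (2 ^ n) := ⟨by positivity⟩
      rw [Nat.card_eq_fintype_card, QuaternionGroup.card]
    have hn : 2 ^ n = 2 ^ 2 := by
      have := Nat.card_congr φ.toEquiv
      rw [hScard, hc] at this
      omega
    have hn2 : n = 2 := Nat.pow_right_injective (le_refl 2) hn
    subst hn2
    let S₀ : Sylow 2 Q := hSp.toSylow (by rw [hSidx]; norm_num)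
    have hS₀ : (S₀ : Subgroup Q) = S := IsPGroup.toSylow_coe hSp _
    let ψ : (S₀ : Subgroup Q) ≃* S := MulEquiv.subgroupCongr hS₀
    exact ⟨(Sylow.equiv P S₀).trans (ψ.trans φ)⟩

theorem octa_perm (e : V ≃* Q8) (hC : centralizer (V : Set Q) ≤ V) (hcard : Nat.card Q = 48)
    {y g : Q} {a₀ : Q8} (hy : orderOf y = 3) (hyV : y ∉ V) (hgy : g * y * g⁻¹ = y⁻¹)
    (hg2 : g ^ 2 = io e (a 2)) (ha : a₀ ^ 2 ≠ 1)
    (h3 : ∀ x, cj e y (cj e y (cj e y x)) = x) (h1 : cj e y ≠ 1) :
    Nonempty (Q ⧸ Subgroup.center Q ≃* Equiv.Perm (Fin 4)) := by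
  classical
  haveI : Fact (Nat.Prime 3) := ⟨Nat.prime_three⟩
  have hP3 : IsPGroup 3 (zpowers y) :=
    IsPGroup.of_card (n := 1) (by rw [Nat.card_zpowers, hy]; norm_num)
  have hP3i : ¬ 3 ∣ (zpowers y).index := by
    have := Subgroup.card_mul_index (zpowers y)
    rw [Nat.card_zpowers, hy, hcard] at this
    omega
  let P₀ : Sylow 3 Q := hP3.toSylow hP3i
  have hP₀ : (P₀ : Subgroup Q) = zpowers y := IsPGroup.toSylow_coe hP3 hP3i
  have hP₀s : ((P₀ : Sylow 3 Q) : Set Q) = ((zpowers y : Subgroup Q) : Set Q) := by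
    rw [← hP₀]
    rfl
  set N := normalizer ((zpowers y : Subgroup Q) : Set Q) with hN
  have hyN : y ∈ N := Subgroup.le_normalizer (mem_zpowers y)
  have hgN : g ∈ N := by
    rw [hN, mem_normalizer_iff]
    intro h
    constructor
    · rintro ⟨i, rfl⟩
      refine ⟨-i, ?_⟩
      simp only
      rw [← conj_zpow, hgy, inv_zpow', ]
    · rintro ⟨i, hi⟩
      simp only at hi
      refine ⟨-i, ?_⟩
      have h2 : h = g⁻¹ * (y ^ i) * g := by
        rw [hi]
        group
      rw [h2]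
      have h3 : g⁻¹ * y * g = y⁻¹ := by
        have h4 : y = g⁻¹ * y⁻¹ * g := by
          rw [← hgy]
          group
        calc g⁻¹ * y * g = (g⁻¹ * y⁻¹ * g)⁻¹ := by group
          _ = y⁻¹ := by rw [← h4]
      have h5 : g⁻¹ * y ^ i * g = (g⁻¹ * y * g) ^ i := by
        have := conj_zpow (a := g⁻¹) (b := y) (i := i)
        simpa using this.symm
      simp only
      rw [h5, h3, inv_zpow', ]
  have hz2 : orderOf (io e (a 2)) = 2 := orderOf_z e
  have hog : orderOf g = 4 := by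
    have h4 : g ^ 2 ^ 2 = 1 := by
      rw [show 2 ^ 2 = 2 * 2 by norm_num, pow_mul, hg2, ← map_pow, q8_a2_sq, map_one]
    have hne : g ^ 2 ^ 1 ≠ 1 := by
      rw [pow_one, hg2]
      intro h
      rw [h, orderOf_one] at hz2
      omega
    have := orderOf_eq_prime_pow (p := 2) (n := 1) (x := g) (by simpa using hne) h4
    simpa using this
  have h3N : 3 ∣ Nat.card N := by
    rw [← hy]
    exact Subgroup.orderOf_dvd_natCard N hyN
  have h4N : 4 ∣ Nat.card N := by
    rw [← hog]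
    exact Subgroup.orderOf_dvd_natCard N hgN
  have h12N : 12 ∣ Nat.card N := Nat.Coprime.mul_dvd_of_dvd_of_dvd (by norm_num) h3N h4N
  have hn3 : Nat.card (Sylow 3 Q) = N.index := by
    rw [P₀.card_eq_index_normalizer, hP₀s]
  have hmod := card_sylow_modEq_one 3 Q
  have hidx : N.index ∣ 4 := by
    have := Subgroup.card_mul_index N
    rw [hcard] at this
    obtain ⟨c, hc⟩ := h12N
    rw [hc] at this
    have h2 : c * N.index = 4 := by
      nlinarith
    exact ⟨c, by rw [← h2]; ring⟩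
  have hn4 : Nat.card (Sylow 3 Q) = 4 := by
    have h5 : N.index ≤ 4 := Nat.le_of_dvd (by norm_num) hidx
    have hm : Nat.card (Sylow 3 Q) % 3 = 1 := hmod
    rw [hn3] at hm ⊢
    interval_cases hi : N.index
    · omega
    · exfalso
      have hNt : N = ⊤ := Subgroup.index_eq_one.mp hi
      obtain ⟨w, hw⟩ : ∃ w : Q8, w ^ 2 ≠ 1 := ⟨a₀, ha⟩
      have hmem : io e w ∈ N := by rw [hNt]; trivial
      rcases mem_V_norm e hy hyV h3 h1 (io_mem e w) hmem with h | h
      · apply hw
        have : w = 1 := io_inj e (by rw [h, map_one])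
        rw [this, one_pow]
      · apply hw
        have : w = a 2 := io_inj e h
        rw [this, q8_a2_sq]
    · omega
    · omega
    · rfl
  -- the kernel
  let ν : Q →* Equiv.Perm (Sylow 3 Q) := MulAction.toPermHom Q (Sylow 3 Q)
  have hker : ν.ker = Subgroup.center Q := by
    apply le_antisymm
    · intro q hq
      have hfix : ∀ P : Sylow 3 Q, q • P = P := by
        intro P
        have := DFunLike.congr_fun (MonoidHom.mem_ker.mp hq) P
        exact this
      have hqN : q ∈ N := by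
        have := (Sylow.smul_eq_iff_mem_normalizer (g := q) (P := P₀)).1 (hfix P₀)
        rwa [hP₀s] at this
      have hconjN : ∀ v : Q, v⁻¹ * q * v ∈ N := by
        intro v
        have h0 : (v⁻¹ * q * v) • P₀ = P₀ := by
          rw [mul_smul, mul_smul, hfix (v • P₀), inv_smul_smul]
        have := (Sylow.smul_eq_iff_mem_normalizer (g := v⁻¹ * q * v) (P := P₀)).1 h0
        rwa [hP₀s] at this
      have hw : ∀ w, cj e q w = w ∨ cj e q w = w * a 2 := by
        intro w
        set v := io e w with hv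
        have hvV : v ∈ V := io_mem e w
        have hxN : q * (v * q⁻¹ * v⁻¹) ∈ N := by
          apply mul_mem hqN
          have := inv_mem (hconjN v⁻¹)
          simpa [mul_assoc] using this
        have hxV : q * (v * q⁻¹ * v⁻¹) ∈ V := by
          have : q * (v * q⁻¹ * v⁻¹) = (q * v * q⁻¹) * v⁻¹ := by group
          rw [this]
          exact mul_mem (hVn.conj_mem v hvV q) (inv_mem hvV)
        have hcv : io e (cj e q w) = q * v * q⁻¹ := io_cj e q w
        rcases mem_V_norm e hy hyV h3 h1 hxV hxN with hx | hx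
        · left
          apply io_inj e
          rw [hcv]
          have : q * v * q⁻¹ = (q * (v * q⁻¹ * v⁻¹)) * v := by group
          rw [this, hx, one_mul]
        · right
          apply io_inj e
          rw [hcv]
          have : q * v * q⁻¹ = (q * (v * q⁻¹ * v⁻¹)) * v := by group
          rw [this, hx, map_mul, ← hv, ← map_mul, ← map_mul, q8_a2_central]
      have hc : q * y * q⁻¹ ∈ zpowers y := (mem_normalizer_iff.mp hqN y).1 (mem_zpowers y)
      have hy3 : y ^ 3 = 1 := by rw [← hy, pow_orderOf_eq_one]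
      rw [center_eq e hC]
      rcases zp3 hy hc with h | h | h
      · exfalso
        have h2 : y = 1 := by
          rw [mul_inv_eq_one] at h
          simpa using h
        rw [h2, orderOf_one] at hy
        omega
      · have h2 : q * y = y * q := by
          rwa [mul_inv_eq_iff_eq_mul] at h
        have hcomm : ∀ x, cj e q (cj e y x) = cj e y (cj e q x) := by
          intro x
          have h4 : cj e q * cj e y = cj e y * cj e q := by
            rw [← map_mul, ← map_mul, h2]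
          exact DFunLike.congr_fun h4 x
        have := ker₂ (cj e y) (cj e q) h3 h1 hw hcomm
        exact ker_le e hC (MonoidHom.mem_ker.mpr this)
      · exfalso
        have hinv : y⁻¹ = y * y := by
          rw [inv_eq_iff_mul_eq_one, ← hy3, pow_succ, pow_two, mul_assoc]
        have h2 : q * y = y * y * q := by
          rw [← hinv]
          rwa [mul_inv_eq_iff_eq_mul] at h
        apply ker₁ (cj e y) (cj e q) h3 h1 hw
        intro x
        have h4 : cj e q * cj e y = cj e y * cj e y * cj e q := by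
          rw [← map_mul, ← map_mul, ← map_mul, h2]
        exact DFunLike.congr_fun h4 x
    · intro x hx
      rw [MonoidHom.mem_ker]
      ext P : 1
      change x • P = P
      rw [Sylow.smul_eq_iff_mem_normalizer]
      change x ∈ normalizer (((P : Subgroup Q)) : Set Q)
      rw [mem_normalizer_iff]
      intro h
      have : x * h * x⁻¹ = h := by
        rw [← Subgroup.mem_center_iff.mp hx h]
        group
      rw [this]
  let eqv : Sylow 3 Q ≃ Fin 4 := Finite.equivFinOfCardEq hn4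
  let ν' : Q →* Equiv.Perm (Fin 4) := (Equiv.permCongrHom eqv).toMonoidHom.comp ν
  have hker' : ν'.ker = Subgroup.center Q := by
    rw [← hker]
    ext q
    rw [MonoidHom.mem_ker, MonoidHom.mem_ker]
    change (Equiv.permCongrHom eqv) (ν q) = 1 ↔ _
    rw [map_eq_one_iff _ (Equiv.permCongrHom eqv).injective]
  have hcenter := card_center e hC
  have hsurj : Function.Surjective ν' := by
    rw [← MonoidHom.range_eq_top]
    apply Subgroup.eq_top_of_card_eq
    rw [← Subgroup.index_ker, hker']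
    have h2 := Subgroup.card_mul_index (Subgroup.center Q)
    rw [hcenter, hcard] at h2
    have h3 : (Subgroup.center Q).index = 24 := by omega
    rw [h3, Nat.card_eq_fintype_card, Fintype.card_perm, Fintype.card_fin]
    rfl
  exact ⟨(QuotientGroup.quotientMulEquivOfEq hker'.symm).trans
    (QuotientGroup.quotientKerEquivOfSurjective ν' hsurj)⟩

theorem main_q8 (e : V ≃* Q8) (hC : centralizer (V : Set Q) ≤ V)
    (hns : ¬ ∃ P : Sylow 2 Q, (P : Subgroup Q).Normal) :
    Nonempty (Q ≃* GL (Fin 2) (ZMod 3)) ∨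
    (Nat.card Q = 48 ∧ Nat.card (Subgroup.center Q) = 2 ∧
      Nonempty (Q ⧸ Subgroup.center Q ≃* Equiv.Perm (Fin 4)) ∧
      ∀ P : Sylow 2 Q, Nonempty ((P : Subgroup Q) ≃* QuaternionGroup 4)) := by
  have hcard := card_eq_48 e hC hns
  obtain ⟨y, g, a₀, b₀, hy, hyV, hgy, -, hgV, ha, hb, hba, hτa, hτb, hγa, hγb, h8, hg, h3, h1⟩ :=
    exists_labeled e hC hns
  rcases hg with hg | hg
  · left
    have hy3 : y ^ 3 = 1 := by rw [← hy, pow_orderOf_eq_one]
    refine iso_gl23 hcard (io e a₀) (io e b₀) y g ?_ ?_ ?_ hy3 ?_ ?_ ?_ ?_ ?_ ?_ ?_ hgy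
    · rw [← map_pow, q8_four, map_one]
    · rw [← map_pow, ← map_pow, hb]
    · rw [← map_inv, ← map_mul, ← map_mul, hba, map_inv]
    · rw [← io_cj, hτa]
    · rw [← io_cj, hτb, map_mul]
    · intro h
      apply ha
      apply io_inj e
      rw [map_pow, h, map_one]
    · intro h
      have h2 : y ^ 2 = 1 := by rw [pow_two, h]
      have := orderOf_dvd_of_pow_eq_one h2
      rw [hy] at this
      omega
    · rw [← pow_two, hg]
    · rw [← io_cj, hγa, map_inv]
    · rw [← io_cj, hγb, map_inv]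
  · right
    exact ⟨hcard, card_center e hC, octa_perm e hC hcard hy hyV hgy hg ha h3 h1,
      fun P => octa_sylow e hcard hg hgV ha hba h8 P⟩

end octa

end Cfsg.Agent.Lib.TwoFusion.RankOneQ8
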