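import Cfsg.Agent.Lib.SuzukiTwo.PSU3
import Mathlib

/-!
# An involutory automorphism (mod inner) of the Sylow 2-subgroup of `SU₃(q)` fixes the centre

Core: an additive involution `φ` of `𝔽_{q²}`, a subgroup `W` containing the norms of all
fixed points of `φ`.  Then `W ⊇ 𝔽_q`.  (The quadratic form `λ ∘ N` is of minus type.)
-/

set_option autoImplicit false
set_option linter.unusedSectionVars false

open scoped BigOperators

namespace Cfsg.Agent.Lib.TwoFusion.SU3Center

open Cfsg.Agent.Lib.HermCount.Field
open Cfsg.Agent.Lib.SuzukiTwo.PSU3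

/-- `B(a,u) = a u^q + a^q u`. -/
noncomputable def B (F : Type*) [Field F] [Fintype F] (q : ℕ) [h : Fact (Fintype.card F = q ^ 2)]
    (u : F) : F →+ F where
  toFun a := a * u ^ q + a ^ q * u
  map_zero' := by
    have := two_le h.out
    simp [zero_pow (show q ≠ 0 by omega)]
  map_add' a b := by
    simp only [frob_add h.out]
    ring

/-- Separation by functionals in an elementary abelian `2`-group. -/
theorem ext_functional {A : Type*} [AddCommGroup A] [Finite A] (h2 : ∀ x : A, x + x = 0) (W : AddSubgroup A)
    (c : A) (hc : c ∉ W) : ∃ l : A →+ ZMod 2, l c ≠ 0 ∧ ∀ w ∈ W, l w = 0 := by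
  letI : Module (ZMod 2) A := AddCommGroup.zmodModule (fun x => by rw [two_nsmul]; exact h2 x)
  let W' : Submodule (ZMod 2) A := AddSubgroup.toZModSubmodule 2 W
  have hc' : c ∉ W' := by simpa [W'] using hc
  obtain ⟨f, hf1, hf2⟩ := Submodule.exists_dual_map_eq_bot_of_notMem hc' inferInstance
  refine ⟨f.toAddMonoidHom, hf1, fun w hw => ?_⟩
  have : f w ∈ W'.map f := ⟨w, by simpa [W'] using hw, rfl⟩
  rw [hf2] at this
  simpa using this

variable {F : Type*} [Field F] [Fintype F] {q : ℕ}
variable [hf : Fact (Fintype.card F = q ^ 2)] [h2F : Fact ((2 : F) = 0)]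

/-- The sign attached to a `ZMod 2`-valued additive functional. -/
noncomputable def sgn (l : F →+ ZMod 2) (x : F) : ℤ := if l x = 0 then 1 else -1

lemma zmod2_cases (a : ZMod 2) : a = 0 ∨ a = 1 := by
  revert a; decide

lemma sgn_add (l : F →+ ZMod 2) (x y : F) : sgn l (x + y) = sgn l x * sgn l y := by
  unfold sgn
  rw [map_add]
  rcases zmod2_cases (l x) with h | h <;> rcases zmod2_cases (l y) with h' | h' <;> rw [h, h'] <;>
    decide

lemma sgn_zero (l : F →+ ZMod 2) : sgn l (0 : F) = 1 := by
  simp [sgn]

/-- The sum over a group of a nontrivial sign character vanishes. -/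
lemma sum_eq_zero_of_shift {A : Type*} [AddCommGroup A] [Fintype A] (l : F →+ ZMod 2) (g : A →+ F)
    (a₀ : A) (h : l (g a₀) ≠ 0) : ∑ a : A, sgn l (g a) = 0 := by
  have h1 : ∑ a : A, sgn l (g (a + a₀)) = ∑ a : A, sgn l (g a) :=
    Fintype.sum_equiv (Equiv.addRight a₀) _ _ (fun _ => rfl)
  have h2 : ∑ a : A, sgn l (g (a + a₀)) = - ∑ a : A, sgn l (g a) := by
    rw [← Finset.sum_neg_distrib]
    apply Finset.sum_congr rfl
    intro a _
    rw [map_add, sgn_add]
    have : sgn l (g a₀) = -1 := by simp [sgn, h]
    rw [this]; ring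
  linarith

lemma B_apply (u a : F) : B F q u a = a * u ^ q + a ^ q * u := rfl

lemma B_comm (u a : F) : B F q u a = B F q a u := by
  simp only [B_apply]; ring

lemma norm_add (a u : F) : (a + u) ^ (q + 1) = a ^ (q + 1) + u ^ (q + 1) + B F q u a := by
  rw [pow_succ, frob_add hf.out, B_apply, pow_succ, pow_succ]
  ring

/-- The main counting lemma. -/
theorem core (φ : F →+ F) (hφ : ∀ a, φ (φ a) = a) (W : AddSubgroup F)
    (hW : ∀ a, φ a = a → a ^ (q + 1) ∈ W) (c : F) (hc : c ^ q = c) : c ∈ W := by
  classical
  by_contra hcW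
  have hq2 := two_le hf.out
  have h2 := two0 (F := F)
  obtain ⟨l, hlc, hlW⟩ : ∃ l : F →+ ZMod 2, l c ≠ 0 ∧ ∀ w ∈ W, l w = 0 :=
    ext_functional (fun x => by linear_combination x * h2) W c hcW
  let e : F → ℤ := sgn l
  have he_W : ∀ w ∈ W, e w = 1 := fun w hw => by simp [e, sgn, hlW w hw]
  -- U, the fixed points
  let U : Finset F := Finset.univ.filter (fun a => φ a = a)
  have hU0 : (0 : F) ∈ U := by simp [U]
  have hUadd : ∀ a ∈ U, ∀ b ∈ U, a + b ∈ U := by
    intro a ha b hb
    simp only [U, Finset.mem_filter, Finset.mem_univ, true_and] at ha hb ⊢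
    rw [map_add, ha, hb]
  have hUn : ∀ a ∈ U, a ^ (q + 1) ∈ W := by
    intro a ha
    simp only [U, Finset.mem_filter, Finset.mem_univ, true_and] at ha
    exact hW a ha
  -- size of U
  have hUcard : q ≤ U.card := by
    let g : F →+ F := AddMonoidHom.id F + φ
    have hg : ∀ a, g a = a + φ a := fun a => rfl
    have hgU : ∀ a, g a ∈ U := by
      intro a
      simp only [U, Finset.mem_filter, Finset.mem_univ, true_and, hg, map_add, hφ]
      ring
    have hker : ∀ a, g a = 0 ↔ a ∈ U := by
      intro a
      simp only [U, Finset.mem_filter, Finset.mem_univ, true_and, hg]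
      constructor
      · intro h
        have := eq_of_add_eq_zero' (F := F) h
        exact this.symm
      · intro h
        rw [h]
        linear_combination a * h2
    -- fibres of g have size |U|
    have hfib : ∀ y ∈ (Finset.univ.image g), (Finset.univ.filter (fun a => g a = y)).card = U.card := by
      intro y hy
      obtain ⟨a₀, -, rfl⟩ := Finset.mem_image.mp hy
      apply Finset.card_bij (fun a _ => a + a₀)
      · intro a ha
        simp only [Finset.mem_filter, Finset.mem_univ, true_and] at ha
        rw [← hker]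
        rw [map_add, ha]
        linear_combination (g a₀) * h2
      · intro a _ b _ h
        exact add_right_cancel h
      · intro b hb
        refine ⟨b + a₀, ?_, ?_⟩
        · simp only [Finset.mem_filter, Finset.mem_univ, true_and]
          rw [map_add, (hker b).mpr hb, zero_add]
        · linear_combination a₀ * h2
    have hcount : Fintype.card F = (Finset.univ.image g).card * U.card := by
      rw [← Finset.card_univ]
      rw [Finset.card_eq_sum_card_image g]
      rw [Finset.sum_congr rfl hfib, Finset.sum_const, smul_eq_mul]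
    have himg : (Finset.univ.image g).card ≤ U.card := by
      apply Finset.card_le_card
      intro y hy
      obtain ⟨a, -, rfl⟩ := Finset.mem_image.mp hy
      exact hgU a
    rw [hf.out] at hcount
    by_contra hlt
    push Not at hlt
    have : (Finset.univ.image g).card * U.card ≤ U.card * U.card := Nat.mul_le_mul_right _ himg
    have h3 : U.card * U.card < q * q := Nat.mul_self_lt_mul_self hlt
    nlinarith
  -- P, the perp
  let P : Finset F := Finset.univ.filter (fun a => ∀ u ∈ U, l (B F q u a) = 0)
  have hUP : U ⊆ P := by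
    intro a ha
    simp only [P, Finset.mem_filter, Finset.mem_univ, true_and]
    intro u hu
    have h1 := hUn _ (hUadd u hu a ha)
    have h3 := hUn _ hu
    have h4 := hUn _ ha
    have h5 := norm_add (q := q) u a
    have h6 := norm_add (q := q) a u
    have h7 : B F q u a = (a + u) ^ (q + 1) + a ^ (q + 1) + u ^ (q + 1) := by
      rw [h6]; linear_combination -(a ^ (q + 1) + u ^ (q + 1)) * h2
    rw [h7, map_add, map_add, hlW _ h3, hlW _ h4, hlW _ (by rw [add_comm]; exact h1)]
    simp
  -- inner sum over U
  have hinner : ∀ a : F, ∑ u ∈ U, e (B F q u a) = if a ∈ P then (U.card : ℤ) else 0 := by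
    intro a
    split_ifs with ha
    · have h1 : ∀ u ∈ U, e (B F q u a) = 1 := by
        intro u hu
        simp only [P, Finset.mem_filter, Finset.mem_univ, true_and] at ha
        simp [e, sgn, ha u hu]
      rw [Finset.sum_congr rfl h1]; simp
    · simp only [P, Finset.mem_filter, Finset.mem_univ, true_and, not_forall] at ha
      obtain ⟨u₀, hu₀, hne⟩ := ha
      -- shift by u₀
      have h1 : ∑ u ∈ U, e (B F q (u + u₀) a) = ∑ u ∈ U, e (B F q u a) := by
        apply Finset.sum_bij (fun u _ => u + u₀)
        · intro u hu; exact hUadd u hu u₀ hu₀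
        · intro x _ y _ h; exact add_right_cancel h
        · intro b hb
          refine ⟨b + u₀, hUadd b hb u₀ hu₀, ?_⟩
          linear_combination u₀ * h2
        · intro _ _; rfl
      have h3 : ∑ u ∈ U, e (B F q (u + u₀) a) = - ∑ u ∈ U, e (B F q u a) := by
        rw [← Finset.sum_neg_distrib]
        apply Finset.sum_congr rfl
        intro u _
        have h4 : B F q (u + u₀) a = B F q u a + B F q u₀ a := by
          simp only [B_apply, frob_add hf.out]; ring
        have h5 : e (B F q u₀ a) = -1 := by simp [e, sgn, hne]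
        change sgn l _ = - sgn l _
        rw [h4, sgn_add]
        change e _ * e _ = - e _
        rw [h5]; ring
      linarith
  -- outer sum over F, for fixed nonzero u
  have houter : ∀ u : F, u ≠ 0 → ∑ a : F, e (B F q u a) = 0 := by
    intro u hu
    obtain ⟨s, hs⟩ := exists_trace hf.out c hc
    have hun : u ^ q ≠ 0 := pow_ne_zero _ hu
    apply sum_eq_zero_of_shift l (B F q u) (s / u ^ q)
    have : B F q u (s / u ^ q) = c := by
      rw [B_apply, div_mul_cancel₀ _ hun, div_pow, frob_frob hf.out]
      rw [div_mul_cancel₀ _ hu]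
      exact hs
    rw [this]; exact hlc
  have houter0 : ∑ a : F, e (B F q 0 a) = (Fintype.card F : ℤ) := by
    have : ∀ a : F, e (B F q 0 a) = 1 := by
      intro a
      have hq0 : q ≠ 0 := by omega
      have : B F q 0 a = 0 := by simp [B_apply, zero_pow hq0]
      rw [this]
      exact sgn_zero l
    simp [this]
  -- |P| |U| = q²
  have hPU : (P.card : ℤ) * U.card = (q : ℤ) ^ 2 := by
    have h1 : ∑ a : F, ∑ u ∈ U, e (B F q u a) = (P.card : ℤ) * U.card := by
      simp_rw [hinner]
      rw [Finset.sum_ite]
      simp [P]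
    have h3 : ∑ a : F, ∑ u ∈ U, e (B F q u a) = ∑ u ∈ U, ∑ a : F, e (B F q u a) :=
      Finset.sum_comm
    have h4 : ∑ u ∈ U, ∑ a : F, e (B F q u a) = (Fintype.card F : ℤ) := by
      rw [Finset.sum_eq_single (0 : F)]
      · exact houter0
      · intro u _ hu
        exact houter u hu
      · intro h; exact absurd hU0 h
    rw [← h1, h3, h4, hf.out]
    push_cast; ring
  -- hence P = U
  have hPcard : P.card * U.card = q ^ 2 := by exact_mod_cast hPU
  have hqpos : 0 < q := by omega
  have hPle : P.card ≤ U.card := by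
    by_contra hlt
    push Not at hlt
    have h1 : q * q ≤ U.card * U.card := Nat.mul_le_mul hUcard hUcard
    have h3 : U.card * U.card < P.card * U.card :=
      Nat.mul_lt_mul_of_pos_right hlt (by omega)
    nlinarith
  have hPeq : P = U := (Finset.eq_of_subset_of_card_le hUP hPle).symm
  -- S = Σ e(N a)
  let S : ℤ := ∑ a : F, e (a ^ (q + 1))
  -- |U| S = |U| Σ_{a ∈ P} e(N a) = |U|²
  have hS1 : (U.card : ℤ) * S = (U.card : ℤ) * U.card := by
    have h1 : ∀ u ∈ U, S = ∑ a : F, e (a ^ (q + 1)) * e (B F q u a) := by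
      intro u hu
      have h3 : ∑ a : F, e ((a + u) ^ (q + 1)) = S :=
        Fintype.sum_equiv (Equiv.addRight u) _ _ (fun _ => rfl)
      rw [← h3]
      apply Finset.sum_congr rfl
      intro a _
      rw [norm_add]
      change sgn l _ = sgn l _ * sgn l _
      rw [sgn_add, sgn_add]
      have h4 : sgn l (u ^ (q + 1)) = 1 := he_W _ (hUn u hu)
      rw [h4]; ring
    have h3 : (U.card : ℤ) * S = ∑ u ∈ U, S := by simp
    rw [h3, Finset.sum_congr rfl h1, Finset.sum_comm]
    have h4 : ∀ a : F, ∑ u ∈ U, e (a ^ (q + 1)) * e (B F q u a)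
        = e (a ^ (q + 1)) * (if a ∈ U then (U.card : ℤ) else 0) := by
      intro a
      rw [← Finset.mul_sum, hinner, hPeq]
    simp_rw [h4]
    have h5 : ∀ a : F, e (a ^ (q + 1)) * (if a ∈ U then (U.card : ℤ) else 0)
        = if a ∈ U then (U.card : ℤ) else 0 := by
      intro a
      split_ifs with ha
      · rw [he_W _ (hUn a ha), one_mul]
      · simp
    simp_rw [h5]
    rw [Finset.sum_ite]
    simp [U]
  have hUpos : 0 < U.card := Finset.card_pos.mpr ⟨0, hU0⟩
  have hS2 : S = U.card := by
    have : (U.card : ℤ) ≠ 0 := by exact_mod_cast hUpos.ne'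
    exact mul_left_cancel₀ this hS1
  -- direct evaluation of S
  let Fq : Finset F := Finset.univ.filter (fun t => t ^ q = t)
  have hFqadd : ∀ t ∈ Fq, t + c ∈ Fq := by
    intro t ht
    simp only [Fq, Finset.mem_filter, Finset.mem_univ, true_and] at ht ⊢
    rw [frob_add hf.out, ht, hc]
  have hFq0 : (0 : F) ∈ Fq := by
    simp only [Fq, Finset.mem_filter, Finset.mem_univ, true_and]
    exact zero_pow (by omega)
  have hsumFq : ∑ t ∈ Fq, e t = 0 := by
    have h1 : ∑ t ∈ Fq, e (t + c) = ∑ t ∈ Fq, e t := by
      apply Finset.sum_bij (fun t _ => t + c)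
      · intro t ht; exact hFqadd t ht
      · intro x _ y _ h; exact add_right_cancel h
      · intro b hb
        refine ⟨b + c, hFqadd b hb, ?_⟩
        linear_combination c * h2
      · intro _ _; rfl
    have h3 : ∑ t ∈ Fq, e (t + c) = - ∑ t ∈ Fq, e t := by
      rw [← Finset.sum_neg_distrib]
      apply Finset.sum_congr rfl
      intro t _
      change sgn l _ = - sgn l _
      rw [sgn_add]
      have h5 : sgn l c = -1 := by simp [sgn, hlc]
      rw [h5]; ring
    linarith
  have hSval : S = - (q : ℤ) := by
    have hN : ∀ a : F, (a ^ (q + 1)) ∈ Fq := by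
      intro a
      simp only [Fq, Finset.mem_filter, Finset.mem_univ, true_and]
      rw [← pow_mul, mul_comm, pow_mul, pow_succ (a ^ q), frob_frob hf.out]
      ring
    have h1 : S = ∑ t ∈ Fq, ∑ a ∈ Finset.univ.filter (fun a : F => a ^ (q + 1) = t), e (a ^ (q + 1)) :=
      (Finset.sum_fiberwise_of_maps_to (fun a _ => hN a) _).symm
    have h3 : ∀ t ∈ Fq, ∑ a ∈ Finset.univ.filter (fun a : F => a ^ (q + 1) = t), e (a ^ (q + 1))
        = (if t = 0 then 1 else ((q : ℤ) + 1) * e t) := by
      intro t ht
      simp only [Fq, Finset.mem_filter, Finset.mem_univ, true_and] at ht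
      split_ifs with h0
      · subst h0
        have : Finset.univ.filter (fun a : F => a ^ (q + 1) = 0) = {0} := by
          ext a
          simp only [Finset.mem_filter, Finset.mem_univ, true_and, Finset.mem_singleton]
          exact pow_eq_zero_iff (by omega)
        rw [this, Finset.sum_singleton, zero_pow (by omega)]
        exact sgn_zero l
      · have h4 : ∀ a ∈ Finset.univ.filter (fun a : F => a ^ (q + 1) = t), e (a ^ (q + 1)) = e t := by
          intro a ha
          simp only [Finset.mem_filter, Finset.mem_univ, true_and] at ha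
          rw [ha]
        rw [Finset.sum_congr rfl h4, Finset.sum_const]
        have h5 := card_norm_fiber hf.out t ht h0
        have h6 : (Finset.univ.filter (fun a : F => a ^ (q + 1) = t)).card = q + 1 := by
          rw [Nat.card_eq_fintype_card, Fintype.card_subtype] at h5
          exact h5
        rw [h6]
        simp
    rw [h1, Finset.sum_congr rfl h3]
    have h4 : ∑ t ∈ Fq, (if t = 0 then (1 : ℤ) else ((q : ℤ) + 1) * e t)
        = 1 + ∑ t ∈ Fq.erase 0, ((q : ℤ) + 1) * e t := by
      rw [← Finset.add_sum_erase Fq _ hFq0]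
      simp only [if_true]
      congr 1
      apply Finset.sum_congr rfl
      intro t ht
      rw [if_neg (Finset.ne_of_mem_erase ht)]
    rw [h4, ← Finset.mul_sum]
    have h5 : ∑ t ∈ Fq.erase 0, e t = -1 := by
      have h6 := Finset.add_sum_erase Fq e hFq0
      rw [hsumFq] at h6
      have h7 : e 0 = 1 := sgn_zero l
      rw [h7] at h6
      linarith
    rw [h5]; ring
  have : (0 : ℤ) < U.card := by exact_mod_cast hUpos
  have hqZ : (0 : ℤ) < q := by exact_mod_cast hqpos
  linarith

lemma center_map {X Y : Type*} [Group X] [Group Y] (τ : X ≃* Y) (x : X) (hx : x ∈ Subgroup.center X) :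
    τ x ∈ Subgroup.center Y := by
  rw [Subgroup.mem_center_iff] at hx ⊢
  intro y
  obtain ⟨y', rfl⟩ := τ.surjective y
  rw [← map_mul, ← map_mul, hx]

/-- An automorphism of the model `H` whose square is inner fixes the centre elementwise. -/
theorem fix_center (τ : H F q ≃* H F q) (g : H F q) (hτ : ∀ x, τ (τ x) = g * x * g⁻¹)
    (z : H F q) (hz : z ∈ Subgroup.center (H F q)) : τ z = z := by
  classical
  have hq2 := two_le hf.out
  have hq0 : q ≠ 0 := by omega
  have h2 := two0 (F := F)
  -- `τ` preserves the centre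
  have hcen : ∀ x : H F q, x.1.1 = 0 → (τ x).1.1 = 0 := by
    intro x hx
    rw [← mem_center_H]
    exact center_map τ _ ((mem_center_H x).mpr hx)
  -- the section
  have hsec : ∀ a : F, ∃ x : H F q, x.1.1 = a := fun a => ⟨⟨(a, sec q a), sec_spec a⟩, rfl⟩
  choose s hs using hsec
  -- `π (τ x)` only depends on `π x`
  have hdep : ∀ x y : H F q, x.1.1 = y.1.1 → (τ x).1.1 = (τ y).1.1 := by
    intro x y hxy
    have h1 : (x * y⁻¹).1.1 = 0 := by
      simp only [mul_fst, inv_fst, hxy]
      linear_combination y.1.1 * h2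
    have h3 := hcen _ h1
    rw [map_mul, map_inv] at h3
    simp only [mul_fst, inv_fst] at h3
    exact eq_of_add_eq_zero' h3
  let φ : F →+ F :=
    { toFun := fun a => (τ (s a)).1.1
      map_zero' := by
        apply hcen; exact hs 0
      map_add' := by
        intro a b
        have h1 : (s (a + b)).1.1 = (s a * s b).1.1 := by
          simp only [mul_fst, hs]
        rw [hdep _ _ h1, map_mul, mul_fst] }
  have hφx : ∀ x : H F q, φ x.1.1 = (τ x).1.1 := by
    intro x
    exact hdep _ _ (hs _)
  have hφφ : ∀ a, φ (φ a) = a := by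
    intro a
    have h1 : φ (φ a) = (τ (τ (s a))).1.1 := by
      rw [← hφx, ← hφx, hs]
    rw [h1, hτ]
    simp only [mul_fst, inv_fst, hs]
    linear_combination (g.1.1) * h2
  -- the subgroup of fixed central values
  let W : AddSubgroup F :=
    { carrier := {c | c ^ q = c ∧ ∀ x : H F q, x.1.1 = 0 → x.1.2 = c → τ x = x}
      zero_mem' := by
        refine ⟨zero_pow hq0, fun x h1 h3 => ?_⟩
        have : x = 1 := H_ext h1 h3
        rw [this, map_one]
      neg_mem' := by
        rintro c ⟨h1, h3⟩
        have hn : -c = c := by linear_combination -c * h2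
        rw [Set.mem_ofPred_eq, hn]
        exact ⟨h1, h3⟩
      add_mem' := by
        rintro c d ⟨hc1, hc2⟩ ⟨hd1, hd2⟩
        refine ⟨by rw [frob_add hf.out, hc1, hd1], fun x h1 h3 => ?_⟩
        have hcT : c + c ^ q = (0 : F) ^ (q + 1) := by
          rw [hc1, zero_pow (by omega)]; linear_combination c * h2
        have hdT : d + d ^ q = (0 : F) ^ (q + 1) := by
          rw [hd1, zero_pow (by omega)]; linear_combination d * h2
        let xc : H F q := ⟨(0, c), hcT⟩
        let xd : H F q := ⟨(0, d), hdT⟩
        have hx : x = xc * xd := by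
          apply H_ext
          · simp only [mul_fst, h1]
            change (0 : F) = 0 + 0
            simp
          · simp only [mul_snd, h3]
            change c + d = c + d + 0 * 0 ^ q
            simp
        rw [hx, map_mul, hc2 xc rfl rfl, hd2 xd rfl rfl] }
  have hW : ∀ a, φ a = a → a ^ (q + 1) ∈ W := by
    intro a ha
    have hfr : (a ^ (q + 1)) ^ q = a ^ (q + 1) := by
      rw [pow_succ, mul_pow, pw]; ring
    refine ⟨hfr, fun x hx1 hx2 => ?_⟩
    -- `x = (s a)²`
    have hx : x = s a * s a := by
      apply H_ext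
      · simp only [mul_fst, hs, hx1]
        linear_combination -a * h2
      · simp only [mul_snd, hs, hx2]
        have : a * a ^ q = a ^ (q + 1) := by ring
        rw [this]
        linear_combination - (s a).1.2 * h2
    have h1 : (τ (s a)).1.1 = a := by
      rw [← hφx, hs, ha]
    apply H_ext
    · rw [hcen x hx1, hx1]
    · rw [hx, map_mul]
      simp only [mul_snd, hs, h1]
      linear_combination (τ (s a)).1.2 * h2 - (s a).1.2 * h2
  have hz0 := (mem_center_H z).mp hz
  have hfix := fix_of_invol z hz0
  have hmem := core φ hφφ W hW z.1.2 hfix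
  exact hmem.2 z hz0 rfl

/-- Sylow 2-subgroups of `SU₃(q)`, `q = 2ⁿ`, are isomorphic to the model. -/
theorem nonempty_equiv_SU {n : ℕ} (hq : q = 2 ^ n) (hn : 1 ≤ n) (P : Sylow 2 (Cfsg.SU 3 F q)) :
    Nonempty ((P : Subgroup (Cfsg.SU 3 F q)) ≃* H F q) := by
  have hcard := Cfsg.Agent.Lib.Classical.HermOrders.card_SU hf.out 3 (by norm_num)
  simp only [Finset.prod_range_succ, Finset.prod_range_zero, one_mul] at hcard
  norm_num [Nat.even_iff] at hcard
  have hq2 : Even q := by
    rw [hq]
    exact (Nat.even_pow.mpr ⟨even_two, by omega⟩)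
  have hqpos : 1 ≤ q := by rw [hq]; exact Nat.one_le_two_pow
  obtain ⟨t, ht⟩ : ∃ t, q ^ 2 = t + 1 := ⟨q ^ 2 - 1, by
    have : 1 ≤ q ^ 2 := Nat.one_le_pow _ _ hqpos
    omega⟩
  have ht' : q ^ 2 - 1 = t := by omega
  rw [ht'] at hcard
  have htodd : Odd t := by
    have h2 : Even (t + 1) := by
      rw [← ht]
      exact (Nat.even_pow.mpr ⟨hq2, by norm_num⟩)
    rcases Nat.even_or_odd t with h3 | h3
    · exact absurd h2 (by simpa [Nat.even_add_one] using h3)
    · exact h3
  have hodd : Odd (q ^ 3 + 1) := by
    apply Even.add_one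
    exact (Nat.even_pow.mpr ⟨hq2, by norm_num⟩)
  have e : Nat.card (Cfsg.SU 3 F q) = 2 ^ (n * 3) * (t * (q ^ 3 + 1)) := by
    have h3 : 2 ^ (n * 3) = q ^ 3 := by rw [hq, pow_mul]
    rw [h3]
    apply Nat.eq_of_mul_eq_mul_left (show 0 < q + 1 by omega)
    rw [hcard]
    ring
  have hmodd : Odd (t * (q ^ 3 + 1)) := htodd.mul hodd
  have hS : Nat.card P = 2 ^ (n * 3) := Cfsg.Agent.Lib.TwoFusion.SylowForms.card_sylow_of_eq P hmodd e
  have hr : Nat.card (ι (F := F) (q := q)).range = 2 ^ (n * 3) := by
    rw [Nat.card_congr (MonoidHom.ofInjective (ι_injective (F := F) (q := q))).toEquiv.symm, card_H, pow_mul, hq]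
  have hp : IsPGroup 2 (ι (F := F) (q := q)).range := IsPGroup.of_card hr
  obtain ⟨Q, hQ⟩ := hp.exists_le_sylow
  have hQc : Nat.card Q = 2 ^ (n * 3) := Cfsg.Agent.Lib.TwoFusion.SylowForms.card_sylow_of_eq Q hmodd e
  have hQe : (Q : Subgroup (Cfsg.SU 3 F q)) = (ι (F := F) (q := q)).range := by
    symm
    apply Subgroup.eq_of_le_of_card_ge hQ
    rw [hr, hQc]
  exact ⟨((Sylow.equiv P Q).trans (MulEquiv.subgroupCongr hQe)).trans
    (MonoidHom.ofInjective (ι_injective (F := F) (q := q))).symm⟩

/-- The statement: centre of an index-2 subgroup isomorphic to the model is central. -/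
theorem center_le_center {R : Type*} [Group R] [Finite R] (S' : Subgroup R)
    (hidx : S'.index = 2) (e : S' ≃* H F q) :
    (Subgroup.center S').map S'.subtype ≤ Subgroup.center R := by
  classical
  have hn : S'.Normal := Subgroup.normal_of_index_eq_two hidx
  rintro _ ⟨z, hz, rfl⟩
  rw [Subgroup.mem_center_iff]
  have hzc : ∀ y ∈ S', y * (z : R) = z * y := by
    intro y hy
    have := (Subgroup.mem_center_iff.mp hz) ⟨y, hy⟩
    exact congrArg Subtype.val this
  -- pick `t` outside `S'`
  by_cases hall : ∀ t : R, t ∈ S'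
  · intro y
    exact hzc y (hall y)
  push Not at hall
  obtain ⟨t, ht⟩ := hall
  have ht2 : t * t ∈ S' := by
    have : (t : R) ^ 2 ∈ S' := Subgroup.pow_index_mem S' t |> fun h => by rwa [hidx] at h
    rwa [pow_two] at this
  -- the conjugation on `S'`
  let c : S' ≃* S' := MulAut.conjNormal t
  have hc : ∀ x : S', ((c x : S') : R) = t * x * t⁻¹ := fun x => rfl
  let τ : H F q ≃* H F q := (e.symm.trans c).trans e
  have hτ : ∀ x, τ (τ x) = (e ⟨t * t, ht2⟩) * x * (e ⟨t * t, ht2⟩)⁻¹ := by
    intro x
    apply e.symm.injective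
    apply Subtype.ext
    simp only [τ, MulEquiv.trans_apply, MulEquiv.symm_apply_apply, map_mul, map_inv, hc,
      Subgroup.coe_mul, Subgroup.coe_inv]
    group
  have hfix := fix_center τ _ hτ (e z) (center_map e _ hz)
  have hct : c z = z := by
    apply e.injective
    have : τ (e z) = e (c z) := by
      simp [τ]
    rw [← this, hfix]
  have htz : t * z = z * t := by
    have h1 := congrArg Subtype.val hct
    rw [hc] at h1
    rw [mul_inv_eq_iff_eq_mul] at h1
    exact h1
  intro y
  by_cases hy : y ∈ S'
  · exact hzc y hy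
  · -- `y = t * s`
    have hyt : t⁻¹ * y ∈ S' := by
      by_contra hne
      have h1 := Subgroup.mul_mem_iff_of_index_two hidx (a := t⁻¹) (b := y)
      have h3 : t⁻¹ ∉ S' := fun h => ht (by simpa using S'.inv_mem h)
      exact hne (h1.mpr (iff_of_false h3 hy))
    have h1 := hzc _ hyt
    calc y * z = t * ((t⁻¹ * y) * z) := by group
      _ = t * (z * (t⁻¹ * y)) := by rw [h1]
      _ = (t * z) * (t⁻¹ * y) := by group
      _ = (z * t) * (t⁻¹ * y) := by rw [htz]
      _ = z * y := by group

end Cfsg.Agent.Lib.TwoFusion.SU3Center
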