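import Cfsg.Agent.Lib.TwoFusion.SzKey
import Cfsg.Agent.Lib.TwoFusion.SU3Aut
import Cfsg.Agent.Lib.SzIso.Basic
import Cfsg.Prelude.Def_Solvable
import Cfsg.Prelude.Def_Transfer

/-!
# The automorphism group of the Sylow 2-subgroup of the Suzuki groups
-/

set_option autoImplicit false
set_option linter.unusedSectionVars false
set_option linter.unusedVariables false
set_option linter.style.haveILetI false

namespace Cfsg.Agent.Lib.TwoFusion.SzAut

open Cfsg.Agent.Lib.Suzuki.Core Cfsg.Agent.Lib.Suzuki.Stab Cfsg.Agent.Lib.TwoFusion.SzKey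

variable {F : Type*} [Field F] {m : ℕ}

/-- The model of the Sylow 2-subgroup of `Sz`. -/
def SH (F : Type*) (m : ℕ) : Type _ := F × F

namespace SH

variable [CharP F 2]

/-- The group law. -/
instance : Mul (SH F m) := ⟨fun x y => (x.1 + y.1, x.2 + y.2 + th m x.1 * y.1)⟩
instance : One (SH F m) := ⟨(0, 0)⟩
instance : Inv (SH F m) := ⟨fun x => (x.1, x.2 + th m x.1 * x.1)⟩

lemma mul_fst (x y : SH F m) : (x * y).1 = x.1 + y.1 := rfl
lemma mul_snd (x y : SH F m) : (x * y).2 = x.2 + y.2 + th m x.1 * y.1 := rfl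
lemma one_fst : (1 : SH F m).1 = 0 := rfl
lemma one_snd : (1 : SH F m).2 = 0 := rfl
lemma inv_fst (x : SH F m) : (x⁻¹).1 = x.1 := rfl
lemma inv_snd (x : SH F m) : (x⁻¹).2 = x.2 + th m x.1 * x.1 := rfl

lemma ext' {x y : SH F m} (h1 : x.1 = y.1) (h2 : x.2 = y.2) : x = y := Prod.ext h1 h2

noncomputable instance : Group (SH F m) :=
  Group.ofLeftAxioms
    (fun x y z => by
      apply ext'
      · simp only [mul_fst]
        ring
      · simp only [mul_fst, mul_snd]
        rw [th_add]
        ring)
    (fun x => by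
      apply ext'
      · show (0 : F) + x.1 = x.1
        ring
      · show (0 : F) + x.2 + th m 0 * x.1 = x.2
        rw [th_zero]
        ring)
    (fun x => by
      apply ext'
      · show x.1 + x.1 = 0
        exact CharTwo.add_self_eq_zero _
      · show x.2 + th m x.1 * x.1 + x.2 + th m x.1 * x.1 = 0
        linear_combination (x.2 + th m x.1 * x.1) * (CharTwo.two_eq_zero : (2 : F) = 0))

end SH

open SH

variable [Fintype F] [CharP F 2]

instance : Finite (SH F m) := by
  unfold SH
  infer_instance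

lemma sq_fst (x : SH F m) : (x * x).1 = 0 := CharTwo.add_self_eq_zero _
lemma sq_snd (x : SH F m) : (x * x).2 = th m x.1 * x.1 := by
  rw [mul_snd]
  have : x.2 + x.2 = 0 := CharTwo.add_self_eq_zero _
  rw [this, zero_add]

lemma sq_eq_one_iff (x : SH F m) : x * x = 1 ↔ x.1 = 0 := by
  constructor
  · intro h
    have h1 : (x * x).2 = 0 := by rw [h]; rfl
    rw [sq_snd] at h1
    rcases mul_eq_zero.mp h1 with h2 | h2
    · exact th_eq_zero.mp h2
    · exact h2
  · intro h
    apply ext'
    · exact sq_fst x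
    · rw [sq_snd, h, mul_zero]
      rfl

/-- Automorphisms preserve the centre. -/
lemma aut_center (τ : MulAut (SH F m)) (x : SH F m) (hx : x.1 = 0) : (τ x).1 = 0 := by
  rw [← sq_eq_one_iff, ← map_mul, (sq_eq_one_iff x).mpr hx, map_one]

lemma fst_conj (τ : MulAut (SH F m)) (x y : SH F m) (h : x.1 = y.1) : (τ x).1 = (τ y).1 := by
  have h1 : (x⁻¹ * y).1 = 0 := by
    rw [mul_fst, inv_fst, h]
    exact CharTwo.add_self_eq_zero _
  have h3 := aut_center τ _ h1
  rw [map_mul, mul_fst, map_inv, inv_fst] at h3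
  exact CharTwo.add_eq_zero.mp h3

/-- The section. -/
def secH (a : F) : SH F m := (a, 0)

lemma secH_fst (a : F) : (secH a : SH F m).1 = a := rfl

/-- The central element. -/
def ofZ (c : F) : SH F m := (0, c)

lemma ofZ_fst (c : F) : (ofZ c : SH F m).1 = 0 := rfl
lemma ofZ_snd (c : F) : (ofZ c : SH F m).2 = c := rfl

/-- The action on the quotient by the centre. -/
noncomputable def tau1 (τ : MulAut (SH F m)) : F →+ F where
  toFun a := (τ (secH a)).1
  map_zero' := by
    have : (secH 0 : SH F m) = 1 := rfl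
    rw [this, map_one]
    rfl
  map_add' a b := by
    have := fst_conj τ (secH (a + b)) (secH a * secH b) (by simp [secH_fst, mul_fst])
    rw [this, map_mul, mul_fst]

lemma tau1_apply (τ : MulAut (SH F m)) (x : SH F m) : tau1 τ x.1 = (τ x).1 :=
  fst_conj τ _ _ rfl

/-- The action on the centre. -/
noncomputable def tau2 (τ : MulAut (SH F m)) : F →+ F where
  toFun c := (τ (ofZ c)).2
  map_zero' := by
    have : (ofZ 0 : SH F m) = 1 := rfl
    rw [this, map_one]
    rfl
  map_add' c d := by
    have e : (ofZ (c + d) : SH F m) = ofZ c * ofZ d := by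
      apply ext'
      · show (0 : F) = 0 + 0
        simp
      · show c + d = c + d + th m 0 * 0
        simp
    rw [e, map_mul, mul_snd, aut_center τ _ (ofZ_fst c), th_zero, zero_mul, add_zero]

lemma tau1_norm (τ : MulAut (SH F m)) (a : F) :
    th m (tau1 τ a) * tau1 τ a = tau2 τ (th m a * a) := by
  let x : SH F m := secH a
  have e : (ofZ (th m a * a) : SH F m) = x * x := by
    apply ext'
    · rw [sq_fst]
      rfl
    · rw [sq_snd]
      rfl
  show _ = (τ (ofZ (th m a * a))).2
  rw [e, map_mul, sq_snd, ← tau1_apply]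
  rfl

lemma tau1_injective (τ : MulAut (SH F m)) : Function.Injective (tau1 τ) := by
  rw [injective_iff_map_eq_zero]
  intro a ha
  let x : SH F m := secH a
  have h1 : (τ x).1 = 0 := by
    rw [← tau1_apply]
    exact ha
  have h3 := aut_center τ⁻¹ _ h1
  have : (τ⁻¹ (τ x)) = x := MulAut.inv_apply_self _ _ _
  rw [this] at h3
  exact h3

lemma tau1_bijective (τ : MulAut (SH F m)) : Function.Bijective (tau1 τ) :=
  Finite.injective_iff_bijective.mp (tau1_injective τ)

lemma tau1_mul (τ τ' : MulAut (SH F m)) (a : F) : tau1 (τ * τ') a = tau1 τ (tau1 τ' a) := by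
  have h1 := tau1_apply (τ * τ') (secH (m := m) a)
  have h3 := tau1_apply τ' (secH (m := m) a)
  have h4 := tau1_apply τ (τ' (secH (m := m) a))
  rw [secH_fst] at h1 h3
  rw [h1, ← h3] at *
  rw [h4]
  rfl

lemma tau1_one (a : F) : tau1 (1 : MulAut (SH F m)) a = a := by
  have h1 := tau1_apply (1 : MulAut (SH F m)) (secH (m := m) a)
  rw [secH_fst] at h1
  rw [h1]
  rfl

/-- The homomorphism to permutations of `F`. -/
noncomputable def Θ : MulAut (SH F m) →* Equiv.Perm F where
  toFun τ := Equiv.ofBijective (tau1 τ) (tau1_bijective τ)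
  map_one' := by
    ext a
    exact tau1_one (m := m) a
  map_mul' τ τ' := by
    ext a
    exact tau1_mul τ τ' a

@[simp] lemma Θ_apply (τ : MulAut (SH F m)) (a : F) : Θ τ a = tau1 τ a := rfl

variable (hc : Ctx F m)
include hc

/-- The description of the image. -/
theorem exists_semilinear (τ : MulAut (SH F m)) :
    ∃ σ : F ≃+* F, ∀ a, tau1 τ a = tau1 τ 1 * σ a :=
  key hc (tau1 τ) (tau2 τ) (tau1_injective τ) (tau1_norm τ)

omit hc

/-- The semilinear automorphisms of the model. -/
noncomputable def Gh (u : Fˣ) (σ : F ≃+* F) : SH F m →* SH F m where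
  toFun x := ((u : F) * σ x.1, th m (u : F) * (u : F) * σ x.2)
  map_one' := by
    apply ext'
    · show (u : F) * σ 0 = 0
      simp
    · show th m (u : F) * (u : F) * σ 0 = 0
      simp
  map_mul' x y := by
    apply ext'
    · show (u : F) * σ (x.1 + y.1) = (u : F) * σ x.1 + (u : F) * σ y.1
      rw [map_add, mul_add]
    · show th m (u : F) * (u : F) * σ (x.2 + y.2 + th m x.1 * y.1) =
        th m (u : F) * (u : F) * σ x.2 + th m (u : F) * (u : F) * σ y.2 +
          th m ((u : F) * σ x.1) * ((u : F) * σ y.1)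
      have : σ (th m x.1) = th m (σ x.1) := map_pow σ _ _
      rw [map_add, map_add, map_mul, this, th_mul]
      ring

lemma Gh_fst (u : Fˣ) (σ : F ≃+* F) (x : SH F m) : (Gh u σ x).1 = (u : F) * σ x.1 := rfl
lemma Gh_snd (u : Fˣ) (σ : F ≃+* F) (x : SH F m) :
    (Gh u σ x).2 = th m (u : F) * (u : F) * σ x.2 := rfl

lemma Gh_injective (u : Fˣ) (σ : F ≃+* F) : Function.Injective (Gh (m := m) u σ) := by
  intro x y hxy
  have h1 := congrArg (fun z : SH F m => z.1) hxy
  have h3 := congrArg (fun z : SH F m => z.2) hxy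
  simp only [Gh_fst, Gh_snd] at h1 h3
  have hu : (u : F) ≠ 0 := u.ne_zero
  apply ext'
  · exact σ.injective (mul_left_cancel₀ hu h1)
  · exact σ.injective (mul_left_cancel₀ (mul_ne_zero (th_ne_zero m hu) hu) h3)

/-- The semilinear automorphisms of the model. -/
noncomputable def G (u : Fˣ) (σ : F ≃+* F) : MulAut (SH F m) :=
  MulEquiv.ofBijective (Gh u σ) (Finite.injective_iff_bijective.mp (Gh_injective u σ))

lemma G_fst (u : Fˣ) (σ : F ≃+* F) (x : SH F m) : (G u σ x).1 = (u : F) * σ x.1 := rfl

lemma tau1_G (u : Fˣ) (σ : F ≃+* F) (a : F) : tau1 (G (m := m) u σ) a = (u : F) * σ a := by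
  have h1 := tau1_apply (G (m := m) u σ) (secH (m := m) a)
  rw [secH_fst] at h1
  rw [h1, G_fst, secH_fst]

/-! ### The image -/

/-- The parameter map. -/
noncomputable def gp (p : Fˣ × (F ≃+* F)) : Equiv.Perm F := Θ (G (m := m) p.1 p.2)

lemma gp_apply (p : Fˣ × (F ≃+* F)) (a : F) : gp (m := m) p a = (p.1 : F) * p.2 a := tau1_G _ _ _

lemma gp_injective : Function.Injective (gp (F := F) (m := m)) := by
  rintro ⟨u, σ⟩ ⟨v, ρ⟩ h
  have h1 : ∀ a, (u : F) * σ a = (v : F) * ρ a := by
    intro a
    have := congrArg (fun g : Equiv.Perm F => g a) h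
    simpa only [gp_apply] using this
  have huv : u = v := by
    apply Units.ext
    have := h1 1
    simpa using this
  subst huv
  have : σ = ρ := by
    ext a
    exact mul_left_cancel₀ u.ne_zero (h1 a)
  rw [this]

include hc in
lemma range_Θ : (Θ (F := F) (m := m)).range = (Set.range (gp (F := F) (m := m)) : Set _) := by
  ext g
  constructor
  · rintro ⟨τ, rfl⟩
    obtain ⟨σ, hσ⟩ := exists_semilinear hc τ
    have hu : tau1 τ 1 ≠ 0 := fun h => one_ne_zero ((tau1_injective τ) (h.trans (map_zero _).symm))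
    refine ⟨(Units.mk0 _ hu, σ), ?_⟩
    ext a
    rw [gp_apply, Θ_apply, hσ a]
    rfl
  · rintro ⟨p, rfl⟩
    exact ⟨_, rfl⟩

include hc in
lemma card_aut_field : Nat.card (F ≃+* F) = 2 * m + 1 := by
  haveI : Fact (Nat.Prime 2) := ⟨Nat.prime_two⟩
  apply Cfsg.Agent.Lib.KS71.PSLAutGroup.card_ringEquiv (p := 2)
  · exact hc.hcard
  · omega

include hc in
lemma card_range_Θ :
    Nat.card (Θ (F := F) (m := m)).range = (2 ^ (2 * m + 1) - 1) * (2 * m + 1) := by
  classical
  have h1 : Nat.card (Θ (F := F) (m := m)).range = Nat.card (Set.range (gp (F := F) (m := m))) := by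
    apply Nat.card_congr
    exact Equiv.setCongr (range_Θ hc)
  rw [h1, Nat.card_range_of_injective gp_injective, Nat.card_prod, card_aut_field hc,
    Nat.card_eq_fintype_card (α := Fˣ), Fintype.card_units, hc.hcard]

/-! ### The kernel -/

/-- The central automorphisms. -/
noncomputable def Eh (φ : F →+ F) : SH F m →* SH F m where
  toFun x := (x.1, x.2 + φ x.1)
  map_one' := by
    apply ext'
    · rfl
    · show (0 : F) + φ 0 = 0
      simp
  map_mul' x y := by
    apply ext'
    · rfl
    · show x.2 + y.2 + th m x.1 * y.1 + φ (x.1 + y.1) =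
        x.2 + φ x.1 + (y.2 + φ y.1) + th m x.1 * y.1
      rw [map_add]
      ring

lemma Eh_fst (φ : F →+ F) (x : SH F m) : (Eh φ x).1 = x.1 := rfl
lemma Eh_snd (φ : F →+ F) (x : SH F m) : (Eh φ x).2 = x.2 + φ x.1 := rfl

lemma Eh_Eh (φ : F →+ F) (x : SH F m) : Eh φ (Eh φ x) = x := by
  apply ext'
  · rfl
  · show x.2 + φ x.1 + φ x.1 = x.2
    rw [add_assoc, CharTwo.add_self_eq_zero, add_zero]

/-- The central automorphisms. -/
noncomputable def E (φ : F →+ F) : MulAut (SH F m) :=
  { Eh φ with
    invFun := Eh φ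
    left_inv := Eh_Eh φ
    right_inv := Eh_Eh φ }

lemma E_fst (φ : F →+ F) (x : SH F m) : (E φ x).1 = x.1 := rfl
lemma E_snd (φ : F →+ F) (x : SH F m) : (E φ x).2 = x.2 + φ x.1 := rfl

lemma Θ_E (φ : F →+ F) : Θ (E (m := m) φ) = 1 := by
  ext a
  show tau1 (E (m := m) φ) a = a
  have h1 := tau1_apply (E (m := m) φ) (secH (m := m) a)
  rw [secH_fst] at h1
  rw [h1, E_fst, secH_fst]

lemma E_injective : Function.Injective (E (F := F) (m := m)) := by
  intro φ ψ h
  ext a
  have h1 := congrArg (fun τ : MulAut (SH F m) => (τ (secH a)).2) h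
  simp only [E_snd, secH_fst] at h1
  exact add_left_cancel h1

include hc in
lemma exists_norm (c : F) : ∃ a : F, th m a * a = c := by
  by_cases hc0 : c = 0
  · exact ⟨0, by rw [hc0, mul_zero]⟩
  · classical
    let N : Fˣ →* Fˣ :=
      { toFun := fun a => Units.mk0 (th m (a : F) * (a : F))
          (mul_ne_zero (th_ne_zero m a.ne_zero) a.ne_zero)
        map_one' := Units.ext (by simp [th_one])
        map_mul' := fun a b => Units.ext (by
          show th m ((a : F) * (b : F)) * ((a : F) * (b : F)) = _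
          rw [th_mul]
          show _ = th m (a : F) * (a : F) * (th m (b : F) * (b : F))
          ring) }
    have hinj : Function.Injective N := by
      rw [injective_iff_map_eq_one]
      intro a ha
      have h1 : th m (a : F) * (a : F) = 1 := congrArg Units.val ha
      have h3 : (a : F) ^ 2 = a := by
        have h4 : th m (th m (a : F)) * th m (a : F) = 1 := by
          rw [← th_mul, h1, th_one]
        rw [hc.hth] at h4
        have h5 : (a : F) ^ 2 * (th m (a : F) * (a : F)) = (a : F) := by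
          calc (a : F) ^ 2 * (th m (a : F) * (a : F)) = ((a : F) ^ 2 * th m (a : F)) * (a : F) := by ring
            _ = (a : F) := by rw [h4, one_mul]
        rw [h1, mul_one] at h5
        exact h5
      apply Units.ext
      have h6 : (a : F) * ((a : F) - 1) = 0 := by linear_combination h3
      rcases mul_eq_zero.mp h6 with h7 | h7
      · exact absurd h7 a.ne_zero
      · exact sub_eq_zero.mp h7
    obtain ⟨a, ha⟩ := (Finite.injective_iff_surjective.mp hinj) (Units.mk0 c hc0)
    exact ⟨a, congrArg Units.val ha⟩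

include hc in
/-- Every element of the kernel of `Θ` is central. -/
theorem exists_E (τ : MulAut (SH F m)) (hτ : Θ τ = 1) : ∃ φ : F →+ F, τ = E φ := by
  have h2 : ∀ z : F, z + z = 0 := CharTwo.add_self_eq_zero
  have h1 : ∀ a, tau1 τ a = a := fun a => by
    have := congrArg (fun g : Equiv.Perm F => g a) hτ
    simpa using this
  have hfst : ∀ x : SH F m, (τ x).1 = x.1 := fun x => by rw [← tau1_apply, h1]
  -- `τ` is trivial on the centre
  have h3 : ∀ c, τ (ofZ c) = ofZ c := by
    intro c
    obtain ⟨a, ha⟩ := exists_norm hc c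
    have hn := tau1_norm τ a
    rw [h1, ha] at hn
    apply ext'
    · exact hfst _
    · exact hn.symm
  -- the cocycle
  let z : SH F m → F := fun x => (τ x).2 + x.2
  have hzmul : ∀ x y, z (x * y) = z x + z y := by
    intro x y
    show (τ (x * y)).2 + (x * y).2 = (τ x).2 + x.2 + ((τ y).2 + y.2)
    rw [map_mul, mul_snd, mul_snd, hfst x, hfst y]
    linear_combination h2 (th m x.1 * y.1)
  have hzcent : ∀ x c, z (x * ofZ c) = z x := by
    intro x c
    rw [hzmul]
    have : z (ofZ c) = 0 := by
      show (τ (ofZ c)).2 + (ofZ c).2 = 0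
      rw [h3]
      exact h2 _
    rw [this, add_zero]
  have hzfst : ∀ x y : SH F m, x.1 = y.1 → z x = z y := by
    intro x y hxy
    have hc' : (x⁻¹ * y).1 = 0 := by
      rw [mul_fst, inv_fst, hxy]
      exact h2 _
    have e : y = x * ofZ (x⁻¹ * y).2 := by
      have : (ofZ (x⁻¹ * y).2 : SH F m) = x⁻¹ * y := by
        apply ext'
        · exact hc'.symm
        · rfl
      rw [this]
      group
    rw [e, hzcent]
  let φ : F →+ F :=
    { toFun := fun a => z (secH a)
      map_zero' := by
        show z (secH 0) = 0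
        have : z (secH 0) = z 1 := hzfst _ _ rfl
        rw [this]
        show (τ 1).2 + (1 : SH F m).2 = 0
        rw [map_one]
        exact h2 _
      map_add' := fun a b => by
        show z (secH (a + b)) = z (secH a) + z (secH b)
        rw [← hzmul]
        exact hzfst _ _ (by simp [secH_fst, mul_fst]) }
  refine ⟨φ, ?_⟩
  ext x
  apply ext'
  · exact hfst x
  · show (τ x).2 = x.2 + z (secH x.1)
    have : z (secH x.1) = z x := hzfst _ _ rfl
    rw [this]
    show (τ x).2 = x.2 + ((τ x).2 + x.2)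
    linear_combination - h2 x.2

include hc in
lemma ker_Θ : (Θ (F := F) (m := m)).ker = (Set.range (E (F := F) (m := m)) : Set _) := by
  ext τ
  constructor
  · intro h
    obtain ⟨φ, rfl⟩ := exists_E hc τ (MonoidHom.mem_ker.mp h)
    exact ⟨φ, rfl⟩
  · rintro ⟨φ, rfl⟩
    exact MonoidHom.mem_ker.mpr (Θ_E φ)

lemma E_mul (φ ψ : F →+ F) : E (m := m) φ * E ψ = E (φ + ψ) := by
  ext x
  apply ext'
  · rfl
  · show x.2 + ψ x.1 + φ x.1 = x.2 + (φ + ψ) x.1
    simp only [AddMonoidHom.add_apply]
    ring

include hc in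
lemma card_hom : Nat.card (F →+ F) = 2 ^ ((2 * m + 1) ^ 2) := by
  classical
  haveI : Fact (Nat.Prime 2) := ⟨Nat.prime_two⟩
  letI : Module (ZMod 2) F := AddCommGroup.zmodModule (n := 2) (by
    intro x
    rw [two_nsmul]
    exact CharTwo.add_self_eq_zero x)
  have h1 : Module.finrank (ZMod 2) F = 2 * m + 1 := by
    have := Module.card_eq_pow_finrank (K := ZMod 2) (V := F)
    rw [ZMod.card, hc.hcard] at this
    exact (Nat.pow_right_injective (le_refl 2) this).symm
  let e : (F →+ F) ≃ (F →ₗ[ZMod 2] F) :=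
    { toFun := fun f => f.toZModLinearMap 2
      invFun := fun f => f.toAddMonoidHom
      left_inv := fun f => by ext; rfl
      right_inv := fun f => by ext; rfl }
  rw [Nat.card_congr e]
  have h4 : Module.finrank (ZMod 2) (F →ₗ[ZMod 2] F) = (2 * m + 1) ^ 2 := by
    rw [Module.finrank_linearMap, h1]
    ring
  haveI : Finite (F →+ F) :=
    Finite.of_injective (fun f => (f : F → F)) DFunLike.coe_injective
  haveI : Finite (F →ₗ[ZMod 2] F) := Finite.of_equiv _ e
  haveI : Fintype (F →ₗ[ZMod 2] F) := Fintype.ofFinite _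
  rw [Nat.card_eq_fintype_card, Module.card_eq_pow_finrank (K := ZMod 2), ZMod.card, h4]

include hc in
lemma card_ker_Θ : Nat.card (Θ (F := F) (m := m)).ker = 2 ^ ((2 * m + 1) ^ 2) := by
  have h1 : Nat.card (Θ (F := F) (m := m)).ker = Nat.card (Set.range (E (F := F) (m := m))) := by
    apply Nat.card_congr
    exact Equiv.setCongr (ker_Θ hc)
  rw [h1, Nat.card_range_of_injective E_injective, card_hom hc]

include hc in
theorem card_aut :
    Nat.card (MulAut (SH F m)) =
      2 ^ ((2 * m + 1) ^ 2) * ((2 * m + 1) * (2 ^ (2 * m + 1) - 1)) := by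
  have h1 := (Θ (F := F) (m := m)).ker.card_mul_index
  rw [Subgroup.index_ker, card_ker_Θ hc, card_range_Θ hc] at h1
  rw [← h1]
  ring

include hc in
theorem isElementaryAbelian_ker : Cfsg.IsElementaryAbelian 2 (Θ (F := F) (m := m)).ker := by
  constructor
  · refine ⟨⟨fun a b => ?_⟩⟩
    obtain ⟨φ, hφ⟩ := exists_E hc a.1 (MonoidHom.mem_ker.mp a.2)
    obtain ⟨ψ, hψ⟩ := exists_E hc b.1 (MonoidHom.mem_ker.mp b.2)
    apply Subtype.ext
    show a.1 * b.1 = b.1 * a.1
    rw [hφ, hψ, E_mul, E_mul, add_comm]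
  · intro a ha
    obtain ⟨φ, rfl⟩ := exists_E hc a (MonoidHom.mem_ker.mp ha)
    ext x
    rw [pow_two]
    exact Eh_Eh φ x

/-! ### The core -/

omit [Fintype F] in
lemma eq_one_of_pow (x : F) (k : ℕ) (h : x ^ (2 ^ k) = 1) : x = 1 := by
  induction k with
  | zero => simpa using h
  | succ k ih =>
    apply ih
    have h3 : (x ^ 2 ^ k + 1) ^ 2 = 0 := by
      rw [CharTwo.add_sq, one_pow, ← pow_mul, ← pow_succ, h]
      exact CharTwo.add_self_eq_zero _
    have h4 := pow_eq_zero_iff (two_ne_zero) |>.mp h3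
    exact CharTwo.add_eq_zero.mp h4

include hc in
theorem pCore_eq : Cfsg.pCore 2 (MulAut (SH F m)) = (Θ (F := F) (m := m)).ker := by
  classical
  apply le_antisymm
  · apply sSup_le
    rintro N ⟨hN, hp⟩
    intro τ hτ
    -- `Θ` of a `2`-element which is a scalar is trivial
    have hscal : ∀ (c : MulAut (SH F m)), c ∈ N → ∀ w : F, (∀ a, tau1 c a = w * a) → w = 1 := by
      intro c hc' w hw
      obtain ⟨k, hk⟩ := (hp ⟨c, hc'⟩)
      have hk' : c ^ (2 ^ k) = 1 := congrArg Subtype.val hk
      have hpow : ∀ (j : ℕ) (a : F), tau1 (c ^ j) a = w ^ j * a := by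
        intro j
        induction j with
        | zero =>
          intro a
          rw [pow_zero, pow_zero, one_mul]
          exact tau1_one a
        | succ j ih =>
          intro a
          rw [pow_succ, tau1_mul, hw, ih, pow_succ]
          ring
      have := hpow (2 ^ k) 1
      rw [hk', tau1_one, mul_one] at this
      exact eq_one_of_pow w k this.symm
    obtain ⟨σ, hσ⟩ := exists_semilinear hc τ
    have hu : tau1 τ 1 ≠ 0 := fun h => one_ne_zero ((tau1_injective τ) (h.trans (map_zero _).symm))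
    -- commutators with scalars
    have hσ1 : ∀ v : Fˣ, σ (v : F) = v := by
      intro v
      let δ : MulAut (SH F m) := G v (RingEquiv.refl F)
      have hδ : ∀ a, tau1 δ a = (v : F) * a := fun a => tau1_G _ _ _
      let c : MulAut (SH F m) := τ * δ * τ⁻¹ * δ⁻¹
      have hcN : c ∈ N := by
        have h1 : δ * τ⁻¹ * δ⁻¹ ∈ N := hN.conj_mem _ (N.inv_mem hτ) δ
        have : c = τ * (δ * τ⁻¹ * δ⁻¹) := by
          show τ * δ * τ⁻¹ * δ⁻¹ = _
          group
        rw [this]
        exact N.mul_mem hτ h1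
      have hc1 : ∀ a, tau1 c a = (σ (v : F) * (v : F)⁻¹) * a := by
        intro a
        have hb : tau1 τ (tau1 τ⁻¹ (tau1 δ⁻¹ a)) = tau1 δ⁻¹ a := by
          rw [← tau1_mul, mul_inv_cancel, tau1_one]
        have hd : tau1 δ⁻¹ a = (v : F)⁻¹ * a := by
          have h1 : tau1 δ (tau1 δ⁻¹ a) = a := by
            rw [← tau1_mul, mul_inv_cancel, tau1_one]
          rw [hδ] at h1
          field_simp
          linear_combination h1
        show tau1 (τ * δ * τ⁻¹ * δ⁻¹) a = _
        rw [tau1_mul, tau1_mul, tau1_mul, hδ]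
        set y := tau1 τ⁻¹ (tau1 δ⁻¹ a) with hy
        rw [hσ ((v : F) * y), map_mul, hd] at *
        have hb' : tau1 τ 1 * σ y = (v : F)⁻¹ * a := by
          rw [← hb, hσ y]
        calc tau1 τ 1 * (σ (v : F) * σ y) = σ (v : F) * (tau1 τ 1 * σ y) := by ring
          _ = _ := by rw [hb']; ring
      have := hscal c hcN _ hc1
      have hv : (v : F) ≠ 0 := v.ne_zero
      field_simp at this
      exact this
    have hσid : ∀ a, σ a = a := by
      intro a
      by_cases ha : a = 0
      · rw [ha, map_zero]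
      · exact hσ1 (Units.mk0 a ha)
    have h1 : tau1 τ 1 = 1 := hscal τ hτ _ (fun a => by rw [hσ a, hσid])
    apply MonoidHom.mem_ker.mpr
    ext a
    show tau1 τ a = a
    rw [hσ a, hσid, h1, one_mul]
  · apply le_sSup
    refine ⟨MonoidHom.normal_ker _, ?_⟩
    intro a
    refine ⟨1, ?_⟩
    apply Subtype.ext
    have := (isElementaryAbelian_ker hc).2 a.1 a.2
    simpa using this

end Cfsg.Agent.Lib.TwoFusion.SzAut
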