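import Mathlib
import Cfsg.Agent.Lib.RankOne.FieldAut
import Cfsg.Agent.Lib.Suzuki.Sylow2

/-!
# Additive maps of `F_q`, `q = 2^(2m+1)`, respecting `a ↦ θ(a) a`
-/

set_option autoImplicit false
set_option linter.unusedSectionVars false
set_option linter.unusedVariables false
set_option linter.style.haveILetI false

namespace Cfsg.Agent.Lib.TwoFusion.SzKey

open Cfsg.Agent.Lib.Suzuki.Core Cfsg.Agent.Lib.Suzuki.Stab Cfsg.Agent.Lib.RankOne.FieldAut
open scoped BigOperators

variable {F : Type*} [Field F] [Fintype F] [CharP F 2]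

/-- Dedekind independence for products of two automorphisms. -/
theorem coeff_quad [Fintype (F ≃+* F)] (w : (F ≃+* F) × (F ≃+* F) → F)
    (h : ∀ x : F, ∑ p, w p * (p.1 x * p.2 x) = 0) :
    (∀ α β, w (α, β) + w (β, α) = 0) ∧ ∀ α, w (α, α) = 0 := by
  classical
  have h2 : ∀ z : F, z + z = 0 := CharTwo.add_self_eq_zero
  have hpolar : ∀ x y : F, ∑ p, w p * (p.1 x * p.2 y + p.1 y * p.2 x) = 0 := by
    intro x y
    have e1 := h (x + y)
    have e2 := h x
    have e3 := h y
    have e4 : ∑ p, w p * (p.1 (x + y) * p.2 (x + y)) =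
        ∑ p, w p * (p.1 x * p.2 x) + ∑ p, w p * (p.1 y * p.2 y) +
          ∑ p, w p * (p.1 x * p.2 y + p.1 y * p.2 x) := by
      rw [← Finset.sum_add_distrib, ← Finset.sum_add_distrib]
      apply Finset.sum_congr rfl
      intro p _
      rw [map_add, map_add]
      ring
    rw [e4, e2, e3, zero_add, zero_add] at e1
    exact e1
  have hoff : ∀ α β, w (α, β) + w (β, α) = 0 := by
    intro α β
    refine coeff_eq_zero (fun β => w (α, β) + w (β, α)) (fun y => ?_) β
    refine coeff_eq_zero (fun α => ∑ β, (w (α, β) + w (β, α)) * β y) (fun x => ?_) α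
    have e := hpolar x y
    have e1 : ∑ p : (F ≃+* F) × (F ≃+* F), w p * (p.1 x * p.2 y + p.1 y * p.2 x) =
        ∑ p : (F ≃+* F) × (F ≃+* F), w p * (p.1 x * p.2 y) +
          ∑ p : (F ≃+* F) × (F ≃+* F), w p * (p.1 y * p.2 x) := by
      rw [← Finset.sum_add_distrib]
      apply Finset.sum_congr rfl
      intro p _
      ring
    rw [e1, Fintype.sum_prod_type, Fintype.sum_prod_type_right (f := fun p : (F ≃+* F) × (F ≃+* F) =>
      w p * (p.1 y * p.2 x)), ← Finset.sum_add_distrib] at e
    rw [← e]
    apply Finset.sum_congr rfl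
    intro α' _
    rw [Finset.sum_mul, ← Finset.sum_add_distrib]
    apply Finset.sum_congr rfl
    intro β' _
    simp only
    ring
  refine ⟨hoff, ?_⟩
  have hdiag : ∀ x : F, ∑ α : F ≃+* F, w (α, α) * (α x * α x) = 0 := by
    intro x
    have e := h x
    rw [← Finset.sum_filter_add_sum_filter_not Finset.univ (fun p : (F ≃+* F) × (F ≃+* F) => p.1 = p.2)] at e
    have e2 : ∑ p ∈ Finset.univ.filter (fun p : (F ≃+* F) × (F ≃+* F) => ¬ p.1 = p.2),
        w p * (p.1 x * p.2 x) = 0 := by
      apply Finset.sum_involution (fun p _ => p.swap)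
      · rintro ⟨α, β⟩ _
        simp only [Prod.swap_prod_mk]
        have := hoff α β
        linear_combination (α x * β x) * this
      · rintro ⟨α, β⟩ hp _
        simp only [Finset.mem_filter, Finset.mem_univ, true_and] at hp
        simp only [Prod.swap_prod_mk, ne_eq, Prod.mk.injEq, not_and]
        intro h1
        exact absurd h1.symm hp
      · intro p _
        exact Prod.swap_swap p
      · rintro ⟨α, β⟩ hp
        exact Finset.mem_filter.mpr ⟨Finset.mem_univ _, fun h1 => (Finset.mem_filter.mp hp).2 (Eq.symm h1)⟩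
    rw [e2, add_zero] at e
    rw [← e]
    symm
    apply Finset.sum_bij (fun (p : (F ≃+* F) × (F ≃+* F)) _ => p.1)
    · intro p _
      exact Finset.mem_univ _
    · rintro ⟨α, β⟩ hp ⟨α', β'⟩ hp' he
      have hp1 : α = β := (Finset.mem_filter.mp hp).2
      have hp2 : α' = β' := (Finset.mem_filter.mp hp').2
      have he' : α = α' := he
      subst hp1 hp2 he'
      rfl
    · intro α _
      exact ⟨(α, α), by simp, rfl⟩
    · rintro ⟨α, β⟩ hp
      have hp1 : α = β := (Finset.mem_filter.mp hp).2
      subst hp1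
      rfl
  intro α
  have hli := linearIndependent_monoidHom F F
  let g : (F ≃+* F) → (F →* F) := fun σ => (powMonoidHom 2).comp ((σ : F →+* F) : F →* F)
  have hg : Function.Injective g := by
    intro σ ρ hσρ
    ext x
    have h3 := DFunLike.congr_fun hσρ x
    have h4 : (σ x) ^ 2 = (ρ x) ^ 2 := h3
    have h5 : (σ x + ρ x) ^ 2 = 0 := by
      rw [CharTwo.add_sq, h4]
      exact h2 _
    have h6 := pow_eq_zero_iff (two_ne_zero) |>.mp h5
    exact CharTwo.add_eq_zero.mp h6
  have hli' := hli.comp g hg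
  rw [Fintype.linearIndependent_iff] at hli'
  refine hli' (fun α => w (α, α)) ?_ α
  funext x
  have := hdiag x
  simp only [Function.comp, Finset.sum_apply, Pi.smul_apply, smul_eq_mul, Pi.zero_apply]
  rw [← this]
  apply Finset.sum_congr rfl
  intro β _
  have : g β x = β x * β x := by
    show (β x) ^ 2 = _
    ring
  rw [this]

lemma exists_pow_ne (k : ℕ) (hk : 1 < k) (hkq : k < Fintype.card F) : ∃ y : F, y ^ k ≠ y := by
  classical
  by_contra hall
  push Not at hall
  have h1 : ∀ x : Fˣ, x ^ (k - 1) = 1 := by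
    intro x
    apply Units.ext
    have h3 := hall (x : F)
    have h4 : (x : F) ^ k = (x : F) ^ (k - 1) * x := by
      rw [← pow_succ]
      congr 1
      omega
    rw [h4] at h3
    push_cast
    exact mul_right_cancel₀ x.ne_zero (by rw [h3, one_mul])
  have h2 := (FiniteField.forall_pow_eq_one_iff F (k - 1)).mp h1
  have h3 := Nat.le_of_dvd (by omega) h2
  omega

/-- The automorphism `θ`. -/
noncomputable def thEquiv (m : ℕ) : F ≃+* F :=
  haveI : ExpChar F 2 := ExpChar.prime Nat.prime_two
  RingEquiv.ofBijective (iterateFrobenius F 2 (m + 1)) (by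
    constructor
    · exact (iterateFrobenius F 2 (m + 1)).injective
    · exact Finite.surjective_of_injective (iterateFrobenius F 2 (m + 1)).injective)

lemma thEquiv_apply (m : ℕ) (x : F) : thEquiv m x = th m x := by
  haveI : ExpChar F 2 := ExpChar.prime Nat.prime_two
  show iterateFrobenius F 2 (m + 1) x = _
  rw [iterateFrobenius_def]
  rfl

/-- The key theorem. -/
theorem key {m : ℕ} (hc : Ctx F m) (τ t : F →+ F) (hτ : Function.Injective τ)
    (hN : ∀ a, th m (τ a) * τ a = t (th m a * a)) :
    ∃ σ : F ≃+* F, ∀ a, τ a = τ 1 * σ a := by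
  classical
  haveI := finite_aut (F := F)
  letI := Fintype.ofFinite (F ≃+* F)
  have h2 : ∀ z : F, z + z = 0 := CharTwo.add_self_eq_zero
  have hm := hc.hm
  have hcard := hc.hcard
  have hq8 : 8 ≤ Fintype.card F := by
    rw [hcard]
    calc 8 = 2 ^ 3 := by norm_num
      _ ≤ 2 ^ (2 * m + 1) := Nat.pow_le_pow_right (by norm_num) (by omega)
  obtain ⟨c, hcr⟩ := exists_repr_additive τ
  obtain ⟨d, hdr⟩ := exists_repr_additive t
  have hs : ∀ σ : F ≃+* F, σ ∈ (Finset.univ : Finset (F ≃+* F)) := Finset.mem_univ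
  let Θ : F ≃+* F := thEquiv m
  have hΘ : ∀ x, Θ x = th m x := thEquiv_apply m
  let tw : (F ≃+* F) ≃ (F ≃+* F) :=
    { toFun := fun α => α.trans Θ
      invFun := fun α => α.trans Θ.symm
      left_inv := fun α => by ext x; simp
      right_inv := fun α => by ext x; simp }
  have htw : ∀ α x, tw α x = th m (α x) := fun α x => hΘ (α x)
  have hcomm : ∀ (β : F ≃+* F) x, β (th m x) = th m (β x) := fun β x => map_pow β x _
  let w : (F ≃+* F) × (F ≃+* F) → F := fun p =>
    th m (c (tw.symm p.1)) * c p.2 + (if p.1 = tw p.2 then d p.2 else 0)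
  have hid : ∀ x : F, ∑ p, w p * (p.1 x * p.2 x) = 0 := by
    intro x
    have e1 : ∑ p : (F ≃+* F) × (F ≃+* F),
        th m (c (tw.symm p.1)) * c p.2 * (p.1 x * p.2 x) = th m (τ x) * τ x := by
      rw [Fintype.sum_prod_type]
      have e2 : τ x = ∑ σ, c σ * σ x := hcr _ hs x
      have e3 : th m (τ x) = ∑ α, th m (c (tw.symm α)) * α x := by
        rw [e2, ← hΘ, map_sum, ← Equiv.sum_comp tw (fun α => th m (c (tw.symm α)) * α x)]
        apply Finset.sum_congr rfl
        intro ρ _
        rw [Equiv.symm_apply_apply, map_mul, hΘ, htw, hΘ]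
      rw [e3, Finset.sum_mul]
      apply Finset.sum_congr rfl
      intro α _
      rw [e2, Finset.mul_sum]
      apply Finset.sum_congr rfl
      intro β _
      simp only
      ring
    have e4 : ∑ p : (F ≃+* F) × (F ≃+* F),
        (if p.1 = tw p.2 then d p.2 else 0) * (p.1 x * p.2 x) = t (th m x * x) := by
      rw [Fintype.sum_prod_type_right, hdr _ hs]
      apply Finset.sum_congr rfl
      intro β _
      simp only [ite_mul, zero_mul]
      rw [Finset.sum_ite_eq' Finset.univ (tw β) (fun α => d β * (α x * β x))]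
      simp only [Finset.mem_univ, if_true]
      rw [map_mul, hcomm, htw]
    have e5 : ∑ p, w p * (p.1 x * p.2 x) = th m (τ x) * τ x + t (th m x * x) := by
      rw [← e1, ← e4, ← Finset.sum_add_distrib]
      apply Finset.sum_congr rfl
      intro p _
      show (th m (c (tw.symm p.1)) * c p.2 + (if p.1 = tw p.2 then d p.2 else 0)) *
        (p.1 x * p.2 x) = _
      ring
    rw [e5, hN x]
    exact h2 _
  obtain ⟨hoff, hdiag⟩ := coeff_quad w hid
  -- `tw` has no fixed points
  have hne : ∀ α, α ≠ tw α := by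
    intro α hα
    obtain ⟨y, hy⟩ := exists_pow_ne (F := F) 2 (by norm_num) (by omega)
    apply hy
    have h3 : ∀ z : F, th m z = z := by
      intro z
      have := DFunLike.congr_fun hα (α.symm z)
      rw [htw, RingEquiv.apply_symm_apply] at this
      exact this.symm
    rw [← hc.hth, h3, h3]
  have hD : ∀ a, c a ≠ 0 → c (tw a) = 0 := by
    intro a ha
    have h3 := hdiag (tw a)
    simp only [w, Equiv.symm_apply_apply] at h3
    rw [if_neg (hne _), add_zero] at h3
    exact (mul_eq_zero.mp h3).resolve_left (th_ne_zero m ha)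
  have hO : ∀ a b, c a ≠ 0 → c b ≠ 0 → a ≠ b → b = tw (tw a) := by
    intro a b ha hb hab
    by_contra hne2
    have h3 := hoff (tw a) b
    simp only [w, Equiv.symm_apply_apply] at h3
    rw [if_neg (fun h => hab (tw.injective h)), if_neg hne2, hD a ha, mul_zero, add_zero, add_zero,
      add_zero] at h3
    exact (mul_ne_zero (th_ne_zero m ha) hb) h3
  have hU : ∀ a b, c a ≠ 0 → c b ≠ 0 → a = b := by
    intro a b ha hb
    by_contra hab
    have h3 := hO a b ha hb hab
    have h4 := hO b a hb ha (Ne.symm hab)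
    obtain ⟨y, hy⟩ := exists_pow_ne (F := F) 4 (by norm_num) (by omega)
    apply hy
    have h5 : ∀ z : F, th m (th m (th m (th m z))) = z := by
      intro z
      have := DFunLike.congr_fun (h4.trans (by rw [h3])) (a.symm z)
      simp only [htw, RingEquiv.apply_symm_apply] at this
      exact this.symm
    have h6 := h5 y
    rw [hc.hth, hc.hth] at h6
    calc y ^ 4 = (y ^ 2) ^ 2 := by ring
      _ = _ := h6
  -- conclusion
  have hτ1 : τ 1 ≠ 0 := fun h => one_ne_zero (hτ (h.trans (map_zero τ).symm))
  have hex : ∃ σ, c σ ≠ 0 := by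
    by_contra hno
    push Not at hno
    apply hτ1
    rw [hcr _ hs]
    simp [hno]
  obtain ⟨σ, hσ⟩ := hex
  have hsingle : ∀ x, τ x = c σ * σ x := by
    intro x
    rw [hcr _ hs]
    apply Finset.sum_eq_single σ
    · intro β _ hβ
      have : c β = 0 := by
        by_contra hb
        exact hβ (hU β σ hb hσ)
      rw [this, zero_mul]
    · intro h3
      exact absurd (hs σ) h3
  refine ⟨σ, fun a => ?_⟩
  rw [hsingle a, hsingle 1, map_one, mul_one]

end Cfsg.Agent.Lib.TwoFusion.SzKey
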